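import Cfsg.Agent.SpecFive.Tools

/-!
# Facts about the alternating groups of degree five and six, and their extensions
-/

set_option autoImplicit false
set_option linter.unusedSectionVars false
set_option linter.style.haveILetI false

namespace CfsgLib.SpecFive

abbrev A5 := ↥(alternatingGroup (Fin 5))
abbrev A6 := ↥(alternatingGroup (Fin 6))

def a5a : A5 := ⟨Equiv.swap 0 1 * Equiv.swap 2 3, Equiv.Perm.mem_alternatingGroup.2 (by decide)⟩
def a5b : A5 := ⟨Equiv.swap 0 2 * Equiv.swap 1 3, Equiv.Perm.mem_alternatingGroup.2 (by decide)⟩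
def a5x : A5 := ⟨Equiv.swap 1 2 * Equiv.swap 2 3, Equiv.Perm.mem_alternatingGroup.2 (by decide)⟩
def a5y : A5 := ⟨Equiv.swap 0 1 * Equiv.swap 1 2 * Equiv.swap 2 3 * Equiv.swap 3 4, Equiv.Perm.mem_alternatingGroup.2 (by decide)⟩

/-- The four group `{1, a, b, a b}`. -/
def a5V : Subgroup A5 where
  carrier := {g | g = 1 ∨ g = a5a ∨ g = a5b ∨ g = a5a * a5b}
  one_mem' := Or.inl rfl
  mul_mem' := by
    rintro u v (rfl | rfl | rfl | rfl) (rfl | rfl | rfl | rfl) <;>
      simp only [Set.mem_ofPred_eq] <;> decide +kernel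
  inv_mem' := by
    rintro u (rfl | rfl | rfl | rfl) <;> simp only [Set.mem_ofPred_eq] <;> decide +kernel

theorem a5_involution_inverts : ∀ a : A5, a * a = 1 → a ≠ 1 →
    ∃ x : A5, x ^ 3 = 1 ∧ x ≠ 1 ∧ a * x * a⁻¹ = x⁻¹ := by decide +kernel

theorem a5_five_inverted : a5y ^ 5 = 1 ∧ a5y ≠ 1 ∧ ∃ t : A5, t * a5y * t⁻¹ = a5y⁻¹ := by decide +kernel

theorem a5_four : a5a * a5a = 1 ∧ a5b * a5b = 1 ∧ a5a ≠ 1 ∧ a5b ≠ 1 ∧ a5a ≠ a5b ∧
    a5a * a5b = a5b * a5a := by decide +kernel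

theorem a5_x : a5x ^ 3 = 1 ∧ a5x ≠ 1 ∧ (∀ g : A5, (g = 1 ∨ g = a5a ∨ g = a5b ∨ g = a5a * a5b) →
    (a5x * g * a5x⁻¹ = 1 ∨ a5x * g * a5x⁻¹ = a5a ∨ a5x * g * a5x⁻¹ = a5b ∨
      a5x * g * a5x⁻¹ = a5a * a5b)) := by decide +kernel

set_option synthInstance.maxSize 1024 in
set_option synthInstance.maxHeartbeats 200000 in
/-- Elements of order three normalising the four group. -/
theorem a5_norm : ∀ g : A5, g ^ 3 = 1 → g ≠ 1 →
    (g * a5a * g⁻¹ = a5a ∨ g * a5a * g⁻¹ = a5b ∨ g * a5a * g⁻¹ = a5a * a5b) →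
    (g * a5b * g⁻¹ = a5a ∨ g * a5b * g⁻¹ = a5b ∨ g * a5b * g⁻¹ = a5a * a5b) →
    ∃ v : A5, (v = 1 ∨ v = a5a ∨ v = a5b ∨ v = a5a * a5b) ∧ (g = v * a5x ∨ g = v * a5x⁻¹) := by
  decide +kernel

theorem a5_classes : (∀ g : A5, g * g = 1 → g ≠ 1 → ∃ k : A5, k * a5a * k⁻¹ = g) ∧
    (∀ g : A5, g ^ 3 = 1 → g ≠ 1 → ∃ k : A5, k * a5x * k⁻¹ = g) := by decide +kernel

theorem a5V_card : Nat.card a5V = 4 := by
  have e : ((↑a5V : Set A5)) = ({1, a5a, a5b, a5a * a5b} : Finset A5) := by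
    ext g
    simp only [Finset.coe_insert, Finset.coe_singleton, Set.mem_insert_iff, Set.mem_singleton_iff]
    exact Iff.rfl
  show Nat.card ((↑a5V : Set A5) : Set A5) = 4
  rw [e, Nat.card_coe_set_eq, Set.ncard_coe_finset]
  decide +kernel

theorem natCard_A5 : Nat.card A5 = 60 := by
  rw [nat_card_alternatingGroup, Nat.card_fin]; rfl

theorem natCard_A6 : Nat.card A6 = 360 := by
  rw [nat_card_alternatingGroup, Nat.card_fin]; rfl

def a6z : A6 := ⟨Equiv.swap 0 2 * Equiv.swap 1 3, Equiv.Perm.mem_alternatingGroup.2 (by decide)⟩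
def a6d : A6 := ⟨Equiv.swap 1 3 * Equiv.swap 4 5, Equiv.Perm.mem_alternatingGroup.2 (by decide)⟩
def a6t : A6 := ⟨Equiv.swap 0 1 * Equiv.swap 2 3, Equiv.Perm.mem_alternatingGroup.2 (by decide)⟩
def a6x : A6 := ⟨Equiv.swap 0 1 * Equiv.swap 1 4 * (Equiv.swap 2 3 * Equiv.swap 3 5), Equiv.Perm.mem_alternatingGroup.2 (by decide)⟩
def a6w : A6 := ⟨Equiv.swap 1 2 * Equiv.swap 2 3, Equiv.Perm.mem_alternatingGroup.2 (by decide)⟩

theorem a6_basic : a6z * a6z = 1 ∧ a6d * a6d = 1 ∧ a6t * a6t = 1 ∧ a6z ≠ 1 ∧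
    a6z * a6d = a6d * a6z ∧ a6z * a6t = a6t * a6z ∧ a6t * a6d * a6t⁻¹ = a6d * a6z := by decide +kernel

theorem a6_centralizer : ∀ g : A6, g * a6z = a6z * g → g = 1 ∨ g = a6z ∨ g = a6d ∨ g = a6d * a6z ∨
    g = a6t ∨ g = a6t * a6z ∨ g = a6d * a6t ∨ g = a6d * a6t * a6z := by decide +kernel

theorem a6_classes : ∀ g : A6, g * g = 1 → g ≠ 1 → ∃ k : A6, k * a6z * k⁻¹ = g := by decide +kernel

theorem a6_x : a6x ^ 3 = 1 ∧ a6x ≠ 1 ∧
    (a6x * a6z * a6x⁻¹ = a6z ∨ a6x * a6z * a6x⁻¹ = a6d ∨ a6x * a6z * a6x⁻¹ = a6d * a6z) ∧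
    (a6x * a6d * a6x⁻¹ = a6z ∨ a6x * a6d * a6x⁻¹ = a6d ∨ a6x * a6d * a6x⁻¹ = a6d * a6z) := by
  decide +kernel

theorem a6_w : a6w ^ 3 = 1 ∧ a6w ≠ 1 ∧
    (a6w * a6z * a6w⁻¹ = a6z ∨ a6w * a6z * a6w⁻¹ = a6t ∨ a6w * a6z * a6w⁻¹ = a6t * a6z) ∧
    (a6w * a6t * a6w⁻¹ = a6z ∨ a6w * a6t * a6w⁻¹ = a6t ∨ a6w * a6t * a6w⁻¹ = a6t * a6z) := by
  decide +kernel

theorem a6_three : ∃ a b : A6, a ^ 3 = 1 ∧ b ^ 3 = 1 ∧ b ≠ 1 ∧ a * b = b * a ∧
    a ≠ 1 ∧ a ≠ b ∧ a ≠ b⁻¹ :=
  ⟨⟨Equiv.swap 0 1 * Equiv.swap 1 2, Equiv.Perm.mem_alternatingGroup.2 (by decide)⟩, ⟨Equiv.swap 3 4 * Equiv.swap 4 5, Equiv.Perm.mem_alternatingGroup.2 (by decide)⟩,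
    by decide +kernel, by decide +kernel, by decide +kernel, by decide +kernel, by decide +kernel,
    by decide +kernel, by decide +kernel⟩

theorem four_of_alt {M : Type*} [Group M] (hM : Nonempty (M ≃* A5) ∨ Nonempty (M ≃* A6)) :
    ∃ a b : M, a * a = 1 ∧ b * b = 1 ∧ a ≠ 1 ∧ b ≠ 1 ∧ a ≠ b ∧ Commute a b := by
  have push : ∀ {K : Type} [Group K], (M ≃* K) → ∀ a b : K, a * a = 1 → b * b = 1 → a ≠ 1 → b ≠ 1 →
      a ≠ b → Commute a b →
      ∃ a b : M, a * a = 1 ∧ b * b = 1 ∧ a ≠ 1 ∧ b ≠ 1 ∧ a ≠ b ∧ Commute a b := by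
    intro K _ e a b h1 h2 h3 h4 h5 h6
    exact ⟨e.symm a, e.symm b, by rw [← map_mul, h1, map_one], by rw [← map_mul, h2, map_one],
      by simpa using h3, by simpa using h4, fun he => h5 (e.symm.injective he), h6.map e.symm⟩
  rcases hM with ⟨⟨e⟩⟩ | ⟨⟨e⟩⟩
  · obtain ⟨h1, h2, h3, h4, h5, h6⟩ := a5_four
    exact push e _ _ h1 h2 h3 h4 h5 h6
  · exact push e a6z a6d a6_basic.1 a6_basic.2.1 a6_basic.2.2.2.1 (by decide +kernel)
      (by decide +kernel) a6_basic.2.2.2.2.1

section Extension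

variable {G : Type*} [Group G] [Finite G]

/-- An element normalising a dihedral group of order eight and interchanging its four groups, with
square in the group, has order eight. -/
theorem no_dihedral_extension (h : Ord5 G) {P : Subgroup G} {z d t g : G} (hz : z * z = 1) (hz1 : z ≠ 1)
    (hd : d * d = 1) (ht : t * t = 1) (hzd : Commute z d) (hzt : Commute z t)
    (htd : t * d * t⁻¹ = d * z) (hdP : d ∈ P) (htP : t ∈ P)
    (hP : ∀ p ∈ P, p = 1 ∨ p = z ∨ p = d ∨ p = d * z ∨ p = t ∨ p = t * z ∨ p = d * t ∨ p = d * t * z)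
    (hgz : g * z * g⁻¹ = z) (hgd : g * d * g⁻¹ = t ∨ g * d * g⁻¹ = t * z)
    (hgt : g * t * g⁻¹ = d ∨ g * t * g⁻¹ = d * z) (hg2 : g * g ∈ P) : False := by
  have hdne : d ≠ d * z := fun e => hz1 (mul_eq_left.1 e.symm)
  have htd' : ∀ {i : G}, (i = 1 ∨ i = z) → t * i * d * (t * i)⁻¹ = d * z := by
    rintro i (rfl | rfl)
    · rwa [mul_one]
    · calc t * i * d * (t * i)⁻¹ = t * (i * d * i⁻¹) * t⁻¹ := by group
        _ = _ := by rw [hzd.eq, mul_inv_cancel_right, htd]
  have hdd : ∀ {i : G}, (i = 1 ∨ i = z) → d * i * d * (d * i)⁻¹ = d := by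
    rintro i (rfl | rfl)
    · group
    · calc d * i * d * (d * i)⁻¹ = d * (i * d * i⁻¹) * d⁻¹ := by group
        _ = _ := by rw [hzd.eq, mul_inv_cancel_right, mul_inv_cancel_right]
  have hti : t⁻¹ = t := inv_eq_of_mul_eq_one_right ht
  have hdi : d⁻¹ = d := inv_eq_of_mul_eq_one_right hd
  have hdt : d * t * d⁻¹ = t * z := by
    have e : t * d * t = d * z := by rw [← htd, hti]
    rw [hdi]
    calc d * t * d = d * (t * d * t) * t⁻¹ := by group
      _ = d * (d * z) * t := by rw [e, hti]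
      _ = z * t := by rw [← mul_assoc d d z, hd, one_mul]
      _ = t * z := hzt.eq
  -- the element inducing an automorphism of order four
  have odd : ∀ u : G, u * z * u⁻¹ = z → u * u ∈ P →
      ((u * d * u⁻¹ = t ∧ u * t * u⁻¹ = d * z) ∨ (u * d * u⁻¹ = t * z ∧ u * t * u⁻¹ = d)) → False := by
    intro u huz hu2 hu
    have e2 : ∀ a : G, u * u * a * (u * u)⁻¹ = u * (u * a * u⁻¹) * u⁻¹ := fun a => by group
    have emul : ∀ a b : G, u * (a * b) * u⁻¹ = u * a * u⁻¹ * (u * b * u⁻¹) := fun a b => by group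
    have hud : u * u * d * (u * u)⁻¹ = d * z := by
      rw [e2]
      rcases hu with ⟨h1, h2⟩ | ⟨h1, h2⟩
      · rw [h1, h2]
      · rw [h1, emul, h2, huz]
    have hut : u * u * t * (u * u)⁻¹ = t * z := by
      rw [e2]
      rcases hu with ⟨h1, h2⟩ | ⟨h1, h2⟩
      · rw [h2, emul, h1, huz]
      · rw [h2, h1]
    have hsq : u * u * (u * u) = z := by
      have key : ∀ i : G, (i = 1 ∨ i = z) → d * t * i * (d * t * i) = z := by
        intro i hi
        have hi2 : i * i = 1 := by rcases hi with rfl | rfl; exacts [one_mul 1, hz]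
        have hic : Commute i (d * t) := by
          rcases hi with rfl | rfl
          exacts [Commute.one_left _, hzd.mul_right hzt]
        calc d * t * i * (d * t * i) = d * t * (i * (d * t)) * i := by group
          _ = d * t * (d * t) * (i * i) := by rw [hic.eq]; group
          _ = d * (t * d * t⁻¹) * (t * t) * (i * i) := by group
          _ = z := by rw [htd, ht, hi2, ← mul_assoc d d z, hd]; group
      rcases hP _ hu2 with e | e | e | e | e | e | e | e <;> rw [e] at hud hut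
      · exact absurd (by simpa using hud) hdne
      · exact absurd (by rw [hzd.eq, mul_inv_cancel_right] at hud; exact hud) hdne
      · exact absurd (by rw [mul_inv_cancel_right] at hud; exact hud) hdne
      · rw [hdd (Or.inr rfl)] at hud; exact absurd hud hdne
      · exfalso; apply hz1; rw [mul_inv_cancel_right] at hut; exact mul_eq_left.1 hut.symm
      · exfalso; apply hz1
        have : t * z * t * (t * z)⁻¹ = t := by
          calc t * z * t * (t * z)⁻¹ = t * (z * t * z⁻¹) * t⁻¹ := by group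
            _ = t := by rw [hzt.eq, mul_inv_cancel_right, mul_inv_cancel_right]
        rw [this] at hut; exact mul_eq_left.1 hut.symm
      · rw [e]; simpa using key 1 (Or.inl rfl)
      · rw [e]; exact key z (Or.inr rfl)
    rcases h u with e | e | e
    · exact hz1 (by rw [← hsq, ← e]; simp only [pow_succ, pow_zero, one_mul, mul_assoc])
    all_goals
      refine hz1 (eq_one_of_pow_coprime (m := 2) (by norm_num) (by rw [pow_two]; exact hz) (?_ : z ^ 3 = 1))
    · rw [← hsq, show u * u * (u * u) = u ^ 4 by simp only [pow_succ, pow_zero, one_mul, mul_assoc],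
        ← pow_mul, show 4 * 3 = 3 * 4 from rfl, pow_mul, e, one_pow]
    · exfalso
      have h5 : z ^ 5 = 1 := by
        rw [← hsq, show u * u * (u * u) = u ^ 4 by simp only [pow_succ, pow_zero, one_mul, mul_assoc],
          ← pow_mul, show 4 * 5 = 5 * 4 from rfl, pow_mul, e, one_pow]
      exact hz1 (eq_one_of_pow_coprime (by norm_num) (show z ^ 2 = 1 by rw [pow_two]; exact hz) h5)
  have hd' : g * d * z * (g * d)⁻¹ = z := by
    calc g * d * z * (g * d)⁻¹ = g * (d * z * d⁻¹) * g⁻¹ := by group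
      _ = z := by rw [← hzd.eq, mul_inv_cancel_right, hgz]
  have hd2 : g * d * (g * d) ∈ P := by
    have : g * d * g⁻¹ ∈ P := by
      rcases hgd with e | e <;> rw [e]
      · exact htP
      · have hzP : z ∈ P := by
          have := P.mul_mem hdP (P.mul_mem (P.mul_mem htP hdP) (P.inv_mem htP))
          rwa [htd, ← mul_assoc, hd, one_mul] at this
        exact P.mul_mem htP hzP
    rw [show g * d * (g * d) = g * d * g⁻¹ * (g * g) * d by group]
    exact P.mul_mem (P.mul_mem this hg2) hdP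
  have hgdd : g * d * d * (g * d)⁻¹ = g * d * g⁻¹ := by group
  have hgdt : g * d * t * (g * d)⁻¹ = g * t * g⁻¹ * z := by
    calc g * d * t * (g * d)⁻¹ = g * (d * t * d⁻¹) * g⁻¹ := by group
      _ = g * t * g⁻¹ * (g * z * g⁻¹) := by rw [hdt]; group
      _ = _ := by rw [hgz]
  rcases hgd with e1 | e1 <;> rcases hgt with e2 | e2
  · exact odd (g * d) hd' hd2 (Or.inl ⟨by rw [hgdd, e1], by rw [hgdt, e2]⟩)
  · exact odd g hgz hg2 (Or.inl ⟨e1, e2⟩)
  · exact odd g hgz hg2 (Or.inr ⟨e1, e2⟩)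
  · exact odd (g * d) hd' hd2 (Or.inr ⟨by rw [hgdd, e1], by rw [hgdt, e2, mul_assoc, hz, mul_one]⟩)

variable {K : Subgroup G}

theorem exists_mul_centralizes [K.Normal] {M : Type*} [Group M] (e : K ≃* M) {n : ℕ} (a : M)
    (ha : a ^ n = 1) (ha1 : a ≠ 1)
    (hcl : ∀ b : M, b ^ n = 1 → b ≠ 1 → ∃ k : M, k * a * k⁻¹ = b) (g : G) :
    ∃ k ∈ K, Commute (k * g) (e.symm a : G) := by
  have hmem : g * (e.symm a : G) * g⁻¹ ∈ K := (inferInstance : K.Normal).conj_mem _ (e.symm a).2 g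
  obtain ⟨k, hk⟩ := hcl (e ⟨_, hmem⟩) (by
    rw [← map_pow, ← map_one e]
    congr 1
    apply Subtype.ext
    show (g * (e.symm a : G) * g⁻¹) ^ n = 1
    rw [conj_pow, ← Subgroup.coe_pow, ← map_pow, ha, map_one, Subgroup.coe_one, mul_one, mul_inv_cancel])
    (fun he => ha1 (by
      have h1 : g * (e.symm a : G) * g⁻¹ = 1 := congrArg Subtype.val (e.map_eq_one_iff.1 he)
      rw [conj_eq_one_iff] at h1
      exact e.symm.map_eq_one_iff.1 (Subtype.ext h1)))
  refine ⟨((e.symm k)⁻¹ : K), ((e.symm k)⁻¹ : K).2, ?_⟩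
  have h2 := congrArg (fun b => ((e.symm b : K) : G)) hk
  simp only [map_mul, map_inv, MulEquiv.symm_apply_apply, Subgroup.coe_mul, Subgroup.coe_inv] at h2
  show _ * _ = _ * _
  calc ((e.symm k : K) : G)⁻¹ * g * (e.symm a : G)
      = ((e.symm k : K) : G)⁻¹ * (g * (e.symm a : G) * g⁻¹) * g := by group
    _ = (e.symm a : G) * (((e.symm k : K) : G)⁻¹ * g) := by rw [← h2]; group

/-- A normal `A₅` is everything. -/
theorem Ord5.eq_top_of_A5 (h : Ord5 G) [K.Normal] (e : K ≃* A5) : K = ⊤ := by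
  rw [eq_top_iff]
  intro g _
  obtain ⟨h2, h3⟩ := a5_classes
  obtain ⟨ha, -, ha1, -⟩ := a5_four
  obtain ⟨hx, hx1, -⟩ := a5_x
  obtain ⟨k, hk, hc⟩ := exists_mul_centralizes e (n := 2) a5a (by rw [pow_two]; exact ha) ha1
    (fun b hb => h2 b (by rw [← pow_two]; exact hb)) g
  obtain ⟨l, hl, hd⟩ := exists_mul_centralizes e (n := 3) a5x hx hx1 h3 g
  have cne : ∀ {b : A5}, b ≠ 1 → (e.symm b : G) ≠ 1 := fun hb he =>
    hb (e.symm.map_eq_one_iff.1 (Subtype.ext he))
  have cpow : ∀ {b : A5} {n : ℕ}, b ^ n = 1 → (e.symm b : G) ^ n = 1 := fun hb => by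
    rw [← Subgroup.coe_pow, ← map_pow, hb, map_one, Subgroup.coe_one]
  have q1 := h.pow_eq_one_of_commute (m := 4) (by omega) (cpow (show a5a ^ 4 = 1 by
    rw [show (4 : ℕ) = 2 * 2 from rfl, pow_mul, pow_two a5a, ha, one_pow])) (cne ha1) hc.symm
  have q2 := h.pow_eq_one_of_commute (m := 3) (by omega) (cpow hx) (cne hx1) hd.symm
  refine (QuotientGroup.eq_one_iff g).1 (eq_one_of_pow_coprime (m := 4) (n := 3) (by norm_num) ?_ ?_)
  · have := congrArg (QuotientGroup.mk' K) q1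
    rwa [map_pow, map_mul, map_one, show QuotientGroup.mk' K k = 1 from (QuotientGroup.eq_one_iff k).2 hk,
      one_mul] at this
  · have := congrArg (QuotientGroup.mk' K) q2
    rwa [map_pow, map_mul, map_one, show QuotientGroup.mk' K l = 1 from (QuotientGroup.eq_one_iff l).2 hl,
      one_mul] at this

/-- A normal `A₆` is everything. -/
theorem Ord5.eq_top_of_A6 (h : Ord5 G) [K.Normal] (e : K ≃* A6) : K = ⊤ := by
  classical
  obtain ⟨hz, hd, ht, hz1, hzd, hzt, htd⟩ := a6_basic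
  set Z : G := (e.symm a6z : G) with hZ
  set D : G := (e.symm a6d : G) with hD
  set T : G := (e.symm a6t : G) with hT
  let ι : A6 →* G := K.subtype.comp e.symm.toMonoidHom
  have hι : Function.Injective ι := K.subtype_injective.comp e.symm.injective
  have ιmem : ∀ b, ι b ∈ K := fun b => (e.symm b).2
  have hZ1 : Z ≠ 1 := fun he => hz1 (hι (he.trans (map_one ι).symm))
  have hZ4 : Z ^ 4 = 1 := by
    show ι a6z ^ 4 = 1
    rw [← map_pow, show a6z ^ 4 = 1 by rw [show (4 : ℕ) = 2 * 2 from rfl, pow_mul, pow_two a6z, hz, one_pow],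
      map_one]
  by_contra hne
  obtain ⟨g₀, -, hg₀⟩ := SetLike.exists_of_lt (lt_top_iff_ne_top.2 hne)
  have lift : ∀ g : G, g ∉ K → ∃ u : G, Commute u Z ∧ u ∉ K ∧ u ^ 4 = 1 := by
    intro g hg
    obtain ⟨k, hk, hc⟩ := exists_mul_centralizes e (n := 2) a6z (by rw [pow_two]; exact hz) hz1
      (fun b hb => a6_classes b (by rw [← pow_two]; exact hb)) g
    exact ⟨k * g, hc, fun hu => hg ((K.mul_mem_cancel_left hk).1 hu),
      h.pow_eq_one_of_commute (by omega) hZ4 hZ1 hc.symm⟩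
  obtain ⟨u₀, hu₀, hu₀K, hu₀4⟩ := lift g₀ hg₀
  obtain ⟨g, hgZ, hgK, hg2⟩ : ∃ g : G, Commute g Z ∧ g ∉ K ∧ g * g ∈ K := by
    by_cases hs : u₀ * u₀ ∈ K
    · exact ⟨u₀, hu₀, hu₀K, hs⟩
    · refine ⟨u₀ * u₀, hu₀.mul_left hu₀, hs, ?_⟩
      rw [show u₀ * u₀ * (u₀ * u₀) = u₀ ^ 4 by simp only [pow_succ, pow_zero, one_mul, mul_assoc], hu₀4]
      exact K.one_mem
  set P : Subgroup G := K ⊓ Subgroup.centralizer ({Z} : Set G) with hPdef
  have hP : ∀ p ∈ P, p = 1 ∨ p = Z ∨ p = D ∨ p = D * Z ∨ p = T ∨ p = T * Z ∨ p = D * T ∨ p = D * T * Z := by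
    rintro p ⟨hpK, hpC⟩
    have e1 : ι (e ⟨p, hpK⟩) = p := by
      show ((e.symm (e ⟨p, hpK⟩) : K) : G) = p
      rw [MulEquiv.symm_apply_apply]
    have hc := a6_centralizer (e ⟨p, hpK⟩) (hι (by
      rw [map_mul, map_mul, e1]
      exact Subgroup.mem_centralizer_singleton_iff.1 hpC))
    rw [← e1]
    have i1 : ι a6z = Z := rfl
    have i2 : ι a6d = D := rfl
    have i3 : ι a6t = T := rfl
    rcases hc with e2 | e2 | e2 | e2 | e2 | e2 | e2 | e2 <;> rw [e2] <;>
      simp only [map_one, map_mul, i1, i2, i3, true_or, or_true]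
  have mZ : ∀ b : A6, a6z * b = b * a6z → ι b ∈ P := fun b hb =>
    ⟨ιmem b, Subgroup.mem_centralizer_singleton_iff.2 (by
      show ι b * ι a6z = ι a6z * ι b
      rw [← map_mul, ← map_mul, hb])⟩
  have conjP : ∀ p ∈ P, g * p * g⁻¹ ∈ P := by
    rintro p ⟨hpK, hpC⟩
    refine ⟨(inferInstance : K.Normal).conj_mem p hpK g, Subgroup.mem_centralizer_singleton_iff.2 ?_⟩
    calc g * p * g⁻¹ * Z = g * p * (g⁻¹ * Z) := by group
      _ = g * (p * Z) * g⁻¹ := by rw [hgZ.inv_left.eq]; group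
      _ = g * (Z * p) * g⁻¹ := by rw [Subgroup.mem_centralizer_singleton_iff.1 hpC]
      _ = g * Z * p * g⁻¹ := by group
      _ = Z * (g * p * g⁻¹) := by rw [hgZ.eq]; group
  -- an element outside `K` fixing a four group
  have key : ∀ (d' t' x' : A6), d' * d' = 1 → t' * d' * t'⁻¹ = d' * a6z → a6z * t' = t' * a6z →
      x' ^ 3 = 1 → x' ≠ 1 →
      (x' * a6z * x'⁻¹ = a6z ∨ x' * a6z * x'⁻¹ = d' ∨ x' * a6z * x'⁻¹ = d' * a6z) →
      (x' * d' * x'⁻¹ = a6z ∨ x' * d' * x'⁻¹ = d' ∨ x' * d' * x'⁻¹ = d' * a6z) →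
      a6z * d' = d' * a6z → (∀ b : A6, a6z * b = b * a6z → d' * b = b * d' →
        b = 1 ∨ b = a6z ∨ b = d' ∨ b = d' * a6z) → d' ≠ 1 → d' ≠ a6z →
      (g * ι d' * g⁻¹ = ι d' ∨ g * ι d' * g⁻¹ = ι d' * Z) → False := by
    intro d' t' x' hd' htd' hzt' hx' hx1' hxz hxd hzd' hCV hd1 hdz hg
    obtain ⟨u, huK, huZ, hud⟩ : ∃ u : G, u ∉ K ∧ Commute u Z ∧ Commute u (ι d') := by
      rcases hg with hg | hg
      · exact ⟨g, hgK, hgZ, mul_inv_eq_iff_eq_mul.1 hg⟩
      · refine ⟨ι t' * g, fun hh => hgK ((K.mul_mem_cancel_left (ιmem t')).1 hh),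
          Commute.mul_left (show Commute (ι t') (ι a6z) from Commute.map (Eq.symm hzt') ι) hgZ,
          mul_inv_eq_iff_eq_mul.1 ?_⟩
        calc ι t' * g * ι d' * (ι t' * g)⁻¹ = ι t' * (g * ι d' * g⁻¹) * (ι t')⁻¹ := by group
          _ = ι (t' * (d' * a6z) * t'⁻¹) := by rw [hg, map_mul, map_mul, map_mul, map_inv]; rfl
          _ = ι d' := by
            congr 1
            calc t' * (d' * a6z) * t'⁻¹ = t' * d' * t'⁻¹ * (t' * a6z * t'⁻¹) := by group
              _ = d' := by rw [htd', ← hzt', mul_inv_cancel_right, mul_assoc, hz, mul_one]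
    -- the coset `u V`
    let X : Set G := {a | u⁻¹ * a = 1 ∨ u⁻¹ * a = Z ∨ u⁻¹ * a = ι d' ∨ u⁻¹ * a = ι d' * Z}
    have hXcard : Nat.card X = 4 := by
      have hX : X = ↑({u, u * Z, u * ι d', u * (ι d' * Z)} : Finset G) := by
        ext a
        simp only [X, Set.mem_ofPred_eq, inv_mul_eq_iff_eq_mul, mul_one, Finset.coe_insert,
          Finset.coe_singleton, Set.mem_insert_iff, Set.mem_singleton_iff]
      have hDZ : ι d' * Z = ι (d' * a6z) := (map_mul ι _ _).symm
      have n1 : Z ≠ ι d' := fun he => hdz (hι he).symm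
      have n2 : ι d' ≠ 1 := fun he => hd1 (hι (he.trans (map_one ι).symm))
      rw [hX, Nat.card_coe_set_eq, Set.ncard_coe_finset]
      rw [Finset.card_insert_of_notMem, Finset.card_insert_of_notMem, Finset.card_pair]
      · intro he; exact hZ1 (mul_eq_left.1 (mul_left_cancel he).symm)
      · simp only [Finset.mem_insert, Finset.mem_singleton, mul_right_inj, not_or]
        exact ⟨n1, fun he => n2 (mul_eq_right.1 he.symm)⟩
      · simp only [Finset.mem_insert, Finset.mem_singleton, not_or]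
        refine ⟨fun he => hZ1 (mul_eq_left.1 he.symm), fun he => n2 (mul_eq_left.1 he.symm),
          fun he => n1 ?_⟩
        have he' : ι d' * Z = 1 := mul_eq_left.1 he.symm
        have hZZ : Z * Z = 1 := by show ι a6z * ι a6z = 1; rw [← map_mul, hz, map_one]
        calc Z = ι d' * Z * Z := by rw [he', one_mul]
          _ = ι d' := by rw [mul_assoc, hZZ, mul_one]
    have cent : ∀ b : A6, (b = a6z ∨ b = d' ∨ b = d' * a6z) → Commute u (ι b) := by
      rintro b (rfl | rfl | rfl)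
      · exact huZ
      · exact hud
      · rw [map_mul]; exact hud.mul_right huZ
    have hxX : ∀ a ∈ X, ι x' * a * (ι x')⁻¹ ∈ X := by
      intro a ha
      have hc : Commute a Z ∧ Commute a (ι d') := by
        have hv : u⁻¹ * a ∈ ({1, Z, ι d', ι d' * Z} : Set G) := by simpa [X] using ha
        have ea : a = u * (u⁻¹ * a) := by group
        have c1 : Commute (ι d') Z := Commute.map (Eq.symm hzd') ι
        rw [ea]
        rcases hv with e1 | e1 | e1 | e1 <;> rw [e1] <;>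
          constructor <;> refine Commute.mul_left (by assumption) ?_
        exacts [Commute.one_left _, Commute.one_left _, Commute.refl _, c1.symm, c1, Commute.refl _,
          c1.mul_left (Commute.refl _), (Commute.refl _).mul_left c1.symm]
      -- the conjugate still centralises the four group and lies in the same coset of `K`
      have back : ∀ b : A6, (b = a6z ∨ b = d' ∨ b = d' * a6z) → Commute a (ι b) := by
        rintro b (rfl | rfl | rfl)
        · exact hc.1
        · exact hc.2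
        · rw [map_mul]; exact hc.2.mul_right hc.1
      have inv_map : ∀ b : A6, (b = a6z ∨ b = d') →
          Commute (ι x' * a * (ι x')⁻¹) (ι b) := by
        intro b hb
        have hb' : x'⁻¹ * b * x' = a6z ∨ x'⁻¹ * b * x' = d' ∨ x'⁻¹ * b * x' = d' * a6z := by
          have e2 : x'⁻¹ * b * x' = x' * (x' * b * x'⁻¹) * x'⁻¹ := by
            have hxx : x'⁻¹ = x' * x' := inv_eq_of_mul_eq_one_right (by
              rw [← hx']; simp only [pow_succ, pow_zero, one_mul, mul_assoc])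
            rw [show x' * (x' * b * x'⁻¹) * x'⁻¹ = x' * x' * b * (x' * x')⁻¹ by group, ← hxx, inv_inv]
          have step : ∀ c : A6, (c = a6z ∨ c = d' ∨ c = d' * a6z) →
              (x' * c * x'⁻¹ = a6z ∨ x' * c * x'⁻¹ = d' ∨ x' * c * x'⁻¹ = d' * a6z ∨
                x' * c * x'⁻¹ = 1) := by
            rintro c (rfl | rfl | rfl)
            · rcases hxz with r | r | r <;> simp only [r, true_or, or_true]
            · rcases hxd with r | r | r <;> simp only [r, true_or, or_true]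
            · have e3 : x' * (d' * a6z) * x'⁻¹ = x' * d' * x'⁻¹ * (x' * a6z * x'⁻¹) := by group
              have hdzz : d' * a6z * a6z = d' := by rw [mul_assoc, hz, mul_one]
              have hddz : d' * (d' * a6z) = a6z := by rw [← mul_assoc, hd', one_mul]
              have hdzd : d' * a6z * d' = a6z := by rw [mul_assoc, hzd', hddz]
              have hdzdz : d' * a6z * (d' * a6z) = 1 := by rw [← mul_assoc, hdzd, hz]
              have hzdz : a6z * (d' * a6z) = d' := by rw [← mul_assoc, hzd', hdzz]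
              rw [e3]
              rcases hxz with r | r | r <;> rcases hxd with s | s | s <;> rw [r, s] <;>
                simp only [hz, hzd', hd', hdzz, hddz, hdzd, hdzdz, hzdz, true_or, or_true]
          have hb2 : x' * b * x'⁻¹ = a6z ∨ x' * b * x'⁻¹ = d' ∨ x' * b * x'⁻¹ = d' * a6z := by
            rcases hb with e5 | e5 <;> rw [e5] <;> assumption
          rcases step _ hb2 with r | r | r | r <;> rw [← e2] at r
          · exact Or.inl r
          · exact Or.inr (Or.inl r)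
          · exact Or.inr (Or.inr r)
          · exfalso
            have hb1 : b = 1 := by
              calc b = x' * (x'⁻¹ * b * x') * x'⁻¹ := by group
                _ = 1 := by rw [r]; group
            rcases hb with rfl | rfl
            exacts [hz1 hb1, hd1 hb1]
        have := (back _ hb')
        rw [map_mul, map_mul, map_inv] at this
        show _ * _ = _ * _
        calc ι x' * a * (ι x')⁻¹ * ι b = ι x' * (a * ((ι x')⁻¹ * ι b * ι x')) * (ι x')⁻¹ := by group
          _ = ι x' * ((ι x')⁻¹ * ι b * ι x' * a) * (ι x')⁻¹ := by rw [this.eq]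
          _ = ι b * (ι x' * a * (ι x')⁻¹) := by group
      have hK1 : u⁻¹ * (ι x' * a * (ι x')⁻¹) ∈ K := by
        have ha' : u⁻¹ * a ∈ K := by
          rcases ha with e1 | e1 | e1 | e1 <;> rw [e1]
          exacts [K.one_mem, ιmem _, ιmem _, K.mul_mem (ιmem _) (ιmem _)]
        rw [show u⁻¹ * (ι x' * a * (ι x')⁻¹) = (u⁻¹ * ι x' * u) * (u⁻¹ * a) * (ι x')⁻¹ by group]
        exact K.mul_mem (K.mul_mem ((inferInstance : K.Normal).conj_mem' _ (ιmem x') u) ha')
          (K.inv_mem (ιmem x'))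
      have cK : ∀ b : A6, (b = a6z ∨ b = d') → Commute (u⁻¹ * (ι x' * a * (ι x')⁻¹)) (ι b) := fun b hb =>
        (cent b (hb.imp id Or.inl)).inv_left.mul_left (inv_map b hb)
      have e4 : ι (e ⟨_, hK1⟩) = u⁻¹ * (ι x' * a * (ι x')⁻¹) := by
        show ((e.symm (e ⟨_, hK1⟩) : K) : G) = _
        rw [MulEquiv.symm_apply_apply]
      have := hCV (e ⟨_, hK1⟩)
        (hι (by rw [map_mul, map_mul, e4]; exact (cK _ (Or.inl rfl)).symm.eq))
        (hι (by rw [map_mul, map_mul, e4]; exact (cK _ (Or.inr rfl)).symm.eq))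
      show u⁻¹ * _ = 1 ∨ _
      rw [← e4]
      have i1 : ι a6z = Z := rfl
      rcases this with r | r | r | r <;> rw [r] <;>
        simp only [map_one, map_mul, i1, true_or, or_true]
    obtain ⟨a, ha, hac⟩ := exists_fixed Nat.prime_three (x := ι x') (by rw [← map_pow, hx', map_one]) X hxX
      (by rw [hXcard]; norm_num)
    have ha3 := h.pow_eq_one_of_commute (m := 3) (by omega) (by rw [← map_pow, hx', map_one])
      (fun he => hx1' (hι (he.trans (map_one ι).symm))) hac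
    refine huK ?_
    have ha' : u⁻¹ * a ∈ K := by
      rcases ha with e1 | e1 | e1 | e1 <;> rw [e1]
      exacts [K.one_mem, ιmem _, ιmem _, K.mul_mem (ιmem _) (ιmem _)]
    have hu4 := h.pow_eq_one_of_commute (by omega) hZ4 hZ1 huZ.symm
    have hua : (u : G ⧸ K) = (a : G ⧸ K) := QuotientGroup.eq.2 ha'
    refine (QuotientGroup.eq_one_iff u).1 (eq_one_of_pow_coprime (m := 4) (n := 3) (by norm_num) ?_ ?_)
    · rw [← QuotientGroup.mk_pow, hu4]; rfl
    · rw [hua, ← QuotientGroup.mk_pow, ha3]; rfl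
  -- images of the two non-central classes of involutions
  have img : ∀ b : A6, a6z * b = b * a6z → b * b = 1 → b ≠ 1 → b ≠ a6z →
      g * ι b * g⁻¹ = D ∨ g * ι b * g⁻¹ = D * Z ∨ g * ι b * g⁻¹ = T ∨ g * ι b * g⁻¹ = T * Z := by
    intro b hb hb2 hb1 hbz
    set v := g * ι b * g⁻¹ with hv
    have hv2 : v * v = 1 := by
      rw [hv, show g * ι b * g⁻¹ * (g * ι b * g⁻¹) = g * (ι b * ι b) * g⁻¹ by group, ← map_mul, hb2,
        map_one, mul_one, mul_inv_cancel]
    rcases hP v (conjP _ (mZ b hb)) with r | r | r | r | r | r | r | r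
    · exact absurd (hι ((conj_eq_one_iff.1 r).trans (map_one ι).symm)) hb1
    · exfalso
      refine hbz (hι ?_)
      calc ι b = g⁻¹ * v * g := by rw [hv]; group
        _ = g⁻¹ * (Z * g) := by rw [r, mul_assoc]
        _ = Z := by rw [← hgZ.eq]; group
    · exact Or.inl r
    · exact Or.inr (Or.inl r)
    · exact Or.inr (Or.inr (Or.inl r))
    · exact Or.inr (Or.inr (Or.inr r))
    all_goals
      exfalso
      rw [r] at hv2
    · rw [show D * T = ι (a6d * a6t) from (map_mul ι _ _).symm, ← map_mul, ← map_one ι] at hv2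
      exact absurd (hι hv2) (by decide +kernel)
    · rw [show D * T * Z = ι (a6d * a6t * a6z) from by rw [map_mul, map_mul]; rfl, ← map_mul,
        ← map_one ι] at hv2
      exact absurd (hι hv2) (by decide +kernel)
  have gD : g * D * g⁻¹ = T ∨ g * D * g⁻¹ = T * Z := by
    rcases img a6d hzd hd (by decide +kernel) (by decide +kernel) with r | r | r | r
    · exact (key a6d a6t a6x hd htd hzt a6_x.1 a6_x.2.1 a6_x.2.2.1 a6_x.2.2.2 hzd (by decide +kernel)
        (by decide +kernel) (by decide +kernel) (Or.inl r)).elim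
    · exact (key a6d a6t a6x hd htd hzt a6_x.1 a6_x.2.1 a6_x.2.2.1 a6_x.2.2.2 hzd (by decide +kernel)
        (by decide +kernel) (by decide +kernel) (Or.inr r)).elim
    · exact Or.inl r
    · exact Or.inr r
  have gT : g * T * g⁻¹ = D ∨ g * T * g⁻¹ = D * Z := by
    rcases img a6t hzt ht (by decide +kernel) (by decide +kernel) with r | r | r | r
    · exact Or.inl r
    · exact Or.inr r
    · exact (key a6t a6d a6w ht (by decide +kernel) hzd a6_w.1 a6_w.2.1 a6_w.2.2.1 a6_w.2.2.2 hzt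
        (by decide +kernel) (by decide +kernel) (by decide +kernel) (Or.inl r)).elim
    · exact (key a6t a6d a6w ht (by decide +kernel) hzd a6_w.1 a6_w.2.1 a6_w.2.2.1 a6_w.2.2.2 hzt
        (by decide +kernel) (by decide +kernel) (by decide +kernel) (Or.inr r)).elim
  refine no_dihedral_extension h (P := P) (z := Z) (d := D) (t := T) (g := g) ?_ hZ1 ?_ ?_
    (Commute.map hzd ι) (Commute.map hzt ι) ?_ (mZ _ hzd) (mZ _ hzt) hP ?_ gD gT ?_
  · show ι a6z * ι a6z = 1; rw [← map_mul, hz, map_one]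
  · show ι a6d * ι a6d = 1; rw [← map_mul, hd, map_one]
  · show ι a6t * ι a6t = 1; rw [← map_mul, ht, map_one]
  · show ι a6t * ι a6d * (ι a6t)⁻¹ = ι a6d * ι a6z
    rw [← map_inv, ← map_mul, ← map_mul, htd, map_mul]
  · rw [hgZ.eq, mul_inv_cancel_right]
  · exact ⟨hg2, Subgroup.mem_centralizer_singleton_iff.2 (hgZ.mul_left hgZ).eq⟩

end Extension

end CfsgLib.SpecFive
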