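import Mathlib
import Cfsg.Agent.EngelTwo.Basic

/-!
# Groups in which every element has order at most five

`Ord5`, the dichotomy for commuting elements, inverted elements, lifting through a normal 2-subgroup
on which an element of odd order acts without fixed points, and the lemma on `S₃`-actions.
-/

set_option autoImplicit false
set_option linter.unusedSectionVars false

namespace CfsgLib.SpecFive

universe u

/-- Every element has order at most five. -/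
def Ord5 (G : Type*) [Group G] : Prop := ∀ g : G, g ^ 4 = 1 ∨ g ^ 3 = 1 ∨ g ^ 5 = 1

variable {G : Type*} [Group G]

theorem Ord5.of_injective (h : Ord5 G) {H : Type*} [Group H] (f : H →* G) (hf : Function.Injective f) :
    Ord5 H := fun x => by
  simpa only [← map_pow, map_eq_one_iff f hf] using h (f x)

theorem Ord5.of_surjective (h : Ord5 G) {H : Type*} [Group H] (f : G →* H) (hf : Function.Surjective f) :
    Ord5 H := fun x => by
  obtain ⟨g, rfl⟩ := hf x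
  rcases h g with e | e | e
  · exact Or.inl (by rw [← map_pow, e, map_one])
  · exact Or.inr (Or.inl (by rw [← map_pow, e, map_one]))
  · exact Or.inr (Or.inr (by rw [← map_pow, e, map_one]))

theorem Ord5.subgroup (h : Ord5 G) (H : Subgroup G) : Ord5 H :=
  h.of_injective H.subtype H.subtype_injective

theorem Ord5.quotient (h : Ord5 G) (N : Subgroup G) [N.Normal] : Ord5 (G ⧸ N) :=
  h.of_surjective (QuotientGroup.mk' N) (QuotientGroup.mk'_surjective N)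

theorem ord5_of_range [Finite G] (h : ∀ g : G, orderOf g ≤ 5) : Ord5 G := fun g => by
  have h1 := orderOf_pos g
  have h5 := h g
  have hp := pow_orderOf_eq_one g
  generalize orderOf g = o at h1 h5 hp
  interval_cases o
  · exact Or.inl (by rw [show (4 : ℕ) = 1 * 4 from rfl, pow_mul, hp, one_pow])
  · exact Or.inl (by rw [show (4 : ℕ) = 2 * 2 from rfl, pow_mul, hp, one_pow])
  · exact Or.inr (Or.inl hp)
  · exact Or.inl hp
  · exact Or.inr (Or.inr hp)

theorem eq_one_of_pow_coprime {g : G} {m n : ℕ} (hmn : m.Coprime n) (h1 : g ^ m = 1) (h2 : g ^ n = 1) :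
    g = 1 := by
  have := pow_gcd_eq_one.mpr ⟨h1, h2⟩
  rwa [hmn, pow_one] at this

theorem Ord5.exists_exp (h : Ord5 G) (g : G) : ∃ m : ℕ, (m = 3 ∨ m = 4 ∨ m = 5) ∧ g ^ m = 1 := by
  rcases h g with e | e | e
  · exact ⟨4, by omega, e⟩
  · exact ⟨3, by omega, e⟩
  · exact ⟨5, by omega, e⟩

theorem coprime_of_ne {k m : ℕ} (hk : k = 3 ∨ k = 4 ∨ k = 5) (hm : m = 3 ∨ m = 4 ∨ m = 5)
    (h : k ≠ m) : k.Coprime m := by
  rcases hk with rfl | rfl | rfl <;> rcases hm with rfl | rfl | rfl <;> first | omega | norm_num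

/-- An element commuting with a non-identity element has the same exponent. -/
theorem Ord5.pow_eq_one_of_commute (h : Ord5 G) {a b : G} {m : ℕ} (hm : m = 3 ∨ m = 4 ∨ m = 5)
    (ha : a ^ m = 1) (ha1 : a ≠ 1) (hab : Commute a b) : b ^ m = 1 := by
  obtain ⟨k, hk, hb⟩ := h.exists_exp b
  obtain ⟨l, hl, he⟩ := h.exists_exp (a * b)
  rw [hab.mul_pow] at he
  by_cases hlm : l = m
  · rwa [hlm, ha, one_mul] at he
  by_cases hkm : k = m
  · rwa [hkm] at hb
  refine absurd (eq_one_of_pow_coprime (m := l * k) (n := m) ?_ ?_ ha) ha1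
  · exact (coprime_of_ne hl hm hlm).mul_left (coprime_of_ne hk hm hkm)
  · have h2 := congrArg (fun z => z ^ k) he
    simp only [one_pow] at h2
    rwa [(hab.pow_pow l l).mul_pow, ← pow_mul b, mul_comm l k, pow_mul b, hb, one_pow, mul_one,
      ← pow_mul] at h2

/-- The prime `p` and the exponent `m` of its elements. -/
def Kind (p m : ℕ) : Prop := (p = 2 ∧ m = 4) ∨ (p = 3 ∧ m = 3) ∨ (p = 5 ∧ m = 5)

theorem Kind.prime {p m : ℕ} (h : Kind p m) : p.Prime := by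
  rcases h with ⟨rfl, rfl⟩ | ⟨rfl, rfl⟩ | ⟨rfl, rfl⟩ <;> norm_num

theorem Kind.exp_cases {p m : ℕ} (h : Kind p m) : m = 3 ∨ m = 4 ∨ m = 5 := by
  rcases h with ⟨rfl, rfl⟩ | ⟨rfl, rfl⟩ | ⟨rfl, rfl⟩ <;> omega

theorem Kind.coprime {p m l : ℕ} (h : Kind p m) (hl : l = 3 ∨ l = 4 ∨ l = 5) (hne : l ≠ m) :
    l.Coprime p := by
  rcases h with ⟨rfl, rfl⟩ | ⟨rfl, rfl⟩ | ⟨rfl, rfl⟩ <;> rcases hl with rfl | rfl | rfl <;>
    first | omega | norm_num

theorem Ord5.pow_of_isPGroup (h : Ord5 G) {p m : ℕ} (hk : Kind p m) {H : Subgroup G}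
    (hH : IsPGroup p H) {a : G} (ha : a ∈ H) : a ^ m = 1 := by
  obtain ⟨l, hl, he⟩ := h.exists_exp a
  by_cases hlm : l = m
  · rwa [hlm] at he
  obtain ⟨j, hj⟩ := hH ⟨a, ha⟩
  have hj' : a ^ p ^ j = 1 := congrArg Subtype.val hj
  rw [eq_one_of_pow_coprime ((hk.coprime hl hlm).pow_right j) he hj', one_pow]

theorem Kind.isPGroup {p m : ℕ} (hk : Kind p m) {H : Subgroup G} (hH : ∀ a ∈ H, a ^ m = 1) :
    IsPGroup p H := by
  obtain ⟨k, hkm⟩ : ∃ k, m = p ^ k := by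
    rcases hk with ⟨rfl, rfl⟩ | ⟨rfl, rfl⟩ | ⟨rfl, rfl⟩
    exacts [⟨2, rfl⟩, ⟨1, rfl⟩, ⟨1, rfl⟩]
  exact fun a => ⟨k, Subtype.ext (hkm ▸ hH a a.2)⟩

theorem Ord5.isPGroup_centralizer (h : Ord5 G) {p m : ℕ} (hk : Kind p m) {a : G} (ha : a ^ m = 1)
    (ha1 : a ≠ 1) : IsPGroup p (Subgroup.centralizer ({a} : Set G)) :=
  hk.isPGroup fun _ hb => h.pow_eq_one_of_commute hk.exp_cases ha ha1
    (Subgroup.mem_centralizer_singleton_iff.1 hb).symm

theorem Ord5.isPGroup_centralizer_subgroup (h : Ord5 G) {p m : ℕ} (hk : Kind p m) {H : Subgroup G}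
    (hH : IsPGroup p H) (h1 : H ≠ ⊥) : IsPGroup p (Subgroup.centralizer (H : Set G)) := by
  obtain ⟨a, ha, ha1⟩ := H.bot_or_exists_ne_one.resolve_left h1
  exact (h.isPGroup_centralizer hk (h.pow_of_isPGroup hk hH ha) ha1).to_le
    (Subgroup.centralizer_le (Set.singleton_subset_iff.2 ha))

theorem Ord5.fpf (h : Ord5 G) {D : Subgroup G} (hD : IsPGroup 2 D) {x : G} {m : ℕ}
    (hm : m = 3 ∨ m = 5) (hx : x ^ m = 1) (hx1 : x ≠ 1) : ∀ d ∈ D, Commute x d → d = 1 := by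
  intro d hd hc
  have h4 := h.pow_of_isPGroup (Or.inl ⟨rfl, rfl⟩) hD hd
  have hm' := h.pow_eq_one_of_commute (by omega) hx hx1 hc
  rcases hm with rfl | rfl
  · exact eq_one_of_pow_coprime (by norm_num) hm' h4
  · exact eq_one_of_pow_coprime (by norm_num) hm' h4

/-- An element inverting an element of order three or five is an involution. -/
theorem Ord5.inverting (h : Ord5 G) {x t : G} {m : ℕ} (hm : m = 3 ∨ m = 5) (hx : x ^ m = 1)
    (hx1 : x ≠ 1) (ht : t * x * t⁻¹ = x⁻¹) : t * t = 1 ∧ t ≠ 1 := by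
  have hne : x⁻¹ ≠ x := fun e => hx1 (by
    have h2 : x ^ 2 = 1 := by rw [pow_two]; nth_rewrite 1 [← e]; exact inv_mul_cancel x
    rcases hm with rfl | rfl <;> exact eq_one_of_pow_coprime (by norm_num) hx h2)
  have ht1 : t ≠ 1 := fun e => hne (by rw [← ht, e]; group)
  refine ⟨?_, ht1⟩
  have h2 : t * t * x * (t * t)⁻¹ = x :=
    calc t * t * x * (t * t)⁻¹ = t * (t * x * t⁻¹) * t⁻¹ := by group
      _ = t * x⁻¹ * t⁻¹ := by rw [ht]
      _ = (t * x * t⁻¹)⁻¹ := by group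
      _ = x := by rw [ht, inv_inv]
  have hc : Commute (t * t) x := mul_inv_eq_iff_eq_mul.mp h2
  have hm' := h.pow_eq_one_of_commute (by omega) hx hx1 hc.symm
  obtain ⟨l, hl, hl'⟩ := h.exists_exp t
  by_cases hl4 : l = 4
  · subst hl4
    have h22 : (t * t) ^ 2 = 1 := by rw [← hl']; simp only [pow_succ, pow_zero, one_mul, mul_assoc]
    rcases hm with rfl | rfl <;> exact eq_one_of_pow_coprime (by norm_num) hm' h22
  · exfalso
    apply hne
    have hodd : t ^ (l + 1) = t := by rw [pow_succ, hl', one_mul]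
    have hcl : Commute (t ^ (l + 1)) x := by
      rcases (show l + 1 = 4 ∨ l + 1 = 6 by omega) with e | e <;> rw [e]
      · rw [show t ^ 4 = (t * t) ^ 2 by simp only [pow_succ, pow_zero, one_mul, mul_assoc]]
        exact hc.pow_left 2
      · rw [show t ^ 6 = (t * t) ^ 3 by simp only [pow_succ, pow_zero, one_mul, mul_assoc]]
        exact hc.pow_left 3
    rw [hodd] at hcl
    rw [← ht, hcl.eq, mul_inv_cancel_right]

section Fixed

variable [Finite G] {D : Subgroup G} {x : G}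

/-- Fixed-point-free conjugation by `x` makes all elements of the coset `D x` conjugates of `x`. -/
theorem exists_conj_eq (hn : ∀ d ∈ D, x * d * x⁻¹ ∈ D) (hfix : ∀ d ∈ D, Commute x d → d = 1)
    {d : G} (hd : d ∈ D) : ∃ r ∈ D, r * x * r⁻¹ = d * x := by
  let F : D → D := fun r => ⟨r * (x * (r : G)⁻¹ * x⁻¹), D.mul_mem r.2 (hn _ (D.inv_mem r.2))⟩
  have hF : Function.Injective F := fun r s e => by
    have e' : (r : G) * (x * (r : G)⁻¹ * x⁻¹) = s * (x * (s : G)⁻¹ * x⁻¹) := congrArg Subtype.val e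
    refine Subtype.ext (inv_mul_eq_one.1 (hfix _ (D.mul_mem (D.inv_mem s.2) r.2) ?_)).symm
    calc x * ((s : G)⁻¹ * r) = (x * (s : G)⁻¹ * x⁻¹) * (x * (r : G)⁻¹ * x⁻¹)⁻¹ * x := by group
      _ = (s : G)⁻¹ * (s * (x * (s : G)⁻¹ * x⁻¹)) * (x * (r : G)⁻¹ * x⁻¹)⁻¹ * x := by group
      _ = (s : G)⁻¹ * r * x := by rw [← e']; group
  obtain ⟨r, hr⟩ := Finite.surjective_of_injective hF ⟨d, hd⟩
  have hr' : (r : G) * (x * (r : G)⁻¹ * x⁻¹) = d := congrArg Subtype.val hr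
  exact ⟨r, r.2, by rw [← hr']; group⟩

/-- Lifting an inversion through a normal subgroup on which `x` has no fixed point. -/
theorem exists_inverting (hn : ∀ d ∈ D, x⁻¹ * d * x ∈ D) (hfix : ∀ d ∈ D, Commute x d → d = 1)
    {g : G} (hg : g * x * g⁻¹ * x ∈ D) : ∃ r ∈ D, r * g * x * (r * g)⁻¹ = x⁻¹ := by
  obtain ⟨r, hr, he⟩ := exists_conj_eq (x := x⁻¹) (by simpa using hn)
    (fun d hd hc => hfix d hd (by simpa using hc.inv_left)) hg
  refine ⟨r⁻¹, D.inv_mem hr, ?_⟩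
  calc r⁻¹ * g * x * (r⁻¹ * g)⁻¹ = r⁻¹ * (g * x * g⁻¹ * x * x⁻¹) * r := by group
    _ = x⁻¹ := by rw [← he]; group

theorem pow_three_of_mem (hn : ∀ d ∈ D, x * d * x⁻¹ ∈ D) (hfix : ∀ d ∈ D, Commute x d → d = 1)
    (hx : x ^ 3 = 1) {d : G} (hd : d ∈ D) : (d * x) ^ 3 = 1 := by
  obtain ⟨r, -, hr⟩ := exists_conj_eq hn hfix hd
  rw [← hr, conj_pow, hx, mul_one, mul_inv_cancel]

theorem triple (hn : ∀ d ∈ D, x * d * x⁻¹ ∈ D) (hfix : ∀ d ∈ D, Commute x d → d = 1)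
    (hx : x ^ 3 = 1) {d : G} (hd : d ∈ D) :
    d * (x * d * x⁻¹) * (x * (x * d * x⁻¹) * x⁻¹) = 1 :=
  calc d * (x * d * x⁻¹) * (x * (x * d * x⁻¹) * x⁻¹) = (d * x) ^ 3 * (x ^ 3)⁻¹ := by
        simp only [pow_succ, pow_zero, one_mul]; group
    _ = 1 := by rw [pow_three_of_mem hn hfix hx hd, hx]; group

theorem commute_conj (hn : ∀ d ∈ D, x * d * x⁻¹ ∈ D) (hfix : ∀ d ∈ D, Commute x d → d = 1)
    (hx : x ^ 3 = 1) {d : G} (hd : d ∈ D) : Commute d (x * d * x⁻¹) := by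
  have hxx : x⁻¹ = x * x := inv_eq_of_mul_eq_one_right (by
    rw [← hx]; simp only [pow_succ, pow_zero, one_mul, mul_assoc])
  have e : ∀ z : G, x⁻¹ * z * x⁻¹⁻¹ = x * (x * z * x⁻¹) * x⁻¹ := fun z => by
    rw [show x * (x * z * x⁻¹) * x⁻¹ = x * x * z * (x * x)⁻¹ by group, ← hxx]
  have e' : x⁻¹ * x⁻¹ = x := by rw [← mul_inv_rev, ← hxx, inv_inv]
  have hn' : ∀ z ∈ D, x⁻¹ * z * x⁻¹⁻¹ ∈ D := fun z hz => by rw [e]; exact hn _ (hn z hz)
  have h1 := triple hn' (fun z hz hc => hfix z hz (by simpa using hc.inv_left))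
    (by rw [inv_pow, hx, inv_one]) hd
  have h2 := triple hn hfix hx hd
  have e2 : x⁻¹ * (x⁻¹ * d * x⁻¹⁻¹) * x⁻¹⁻¹ = x * d * x⁻¹ := by
    rw [show x⁻¹ * (x⁻¹ * d * x⁻¹⁻¹) * x⁻¹⁻¹ = x⁻¹ * x⁻¹ * d * (x⁻¹ * x⁻¹)⁻¹ by
      simp only [mul_inv_rev, mul_assoc], e']
  rw [e2, e] at h1
  set a := x * d * x⁻¹
  set b := x * a * x⁻¹
  have hd' : d = b⁻¹ * a⁻¹ := by
    calc d = d * a * b * (b⁻¹ * a⁻¹) := by group
      _ = _ := by rw [h2, one_mul]
  have hd'' : d = a⁻¹ * b⁻¹ := by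
    calc d = d * b * a * (a⁻¹ * b⁻¹) := by group
      _ = _ := by rw [h1, one_mul]
  show d * a = a * d
  calc d * a = b⁻¹ := by rw [hd']; group
    _ = a * d := by rw [hd'']; group

/-- An involution inverting `x` centralises no `v` together with `x v x⁻¹`. -/
theorem eq_one_of_fixed_conj {m : ℕ} (hm : m = 3 ∨ m = 5) (hx : x ^ m = 1) {t : G}
    (ht : t * x * t⁻¹ = x⁻¹) (hfix : ∀ d ∈ D, Commute x d → d = 1) {v : G} (hv : v ∈ D)
    (h1 : Commute t v) (h2 : Commute t (x * v * x⁻¹)) : v = 1 := by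
  refine hfix v hv ?_
  have e1 : t * (x * v * x⁻¹) * t⁻¹ = x * v * x⁻¹ := by rw [h2.eq, mul_inv_cancel_right]
  have e2 : x⁻¹ * v * x = x * v * x⁻¹ := by
    calc x⁻¹ * v * x = (t * x * t⁻¹) * (t * v * t⁻¹) * (t * x * t⁻¹)⁻¹ := by
          rw [ht, h1.eq, mul_inv_cancel_right, inv_inv]
      _ = t * (x * v * x⁻¹) * t⁻¹ := by group
      _ = _ := e1
  have hc : Commute (x * x) v := by
    show x * x * v = v * (x * x)
    calc x * x * v = x * (x * v * x⁻¹) * x := by group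
      _ = x * (x⁻¹ * v * x) * x := by rw [e2]
      _ = v * (x * x) := by group
  rcases hm with rfl | rfl
  · have : x = (x * x) ^ 2 := by
      calc x = x ^ 3 * x := by rw [hx, one_mul]
        _ = _ := by simp only [pow_succ, pow_zero, one_mul, mul_assoc]
    rw [this]; exact hc.pow_left 2
  · have : x = (x * x) ^ 3 := by
      calc x = x ^ 5 * x := by rw [hx, one_mul]
        _ = _ := by simp only [pow_succ, pow_zero, one_mul, mul_assoc]
    rw [this]; exact hc.pow_left 3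

/-- The centraliser in `D` of an inverting element has order at most the square root of `|D|`. -/
theorem card_fixed_le {m : ℕ} (hm : m = 3 ∨ m = 5) (hx : x ^ m = 1) {t : G}
    (ht : t * x * t⁻¹ = x⁻¹) (hn : ∀ d ∈ D, x * d * x⁻¹ ∈ D)
    (hfix : ∀ d ∈ D, Commute x d → d = 1) :
    Nat.card (D ⊓ Subgroup.centralizer ({t} : Set G) : Subgroup G) *
      Nat.card (D ⊓ Subgroup.centralizer ({t} : Set G) : Subgroup G) ≤ Nat.card D := by
  set C := D ⊓ Subgroup.centralizer ({t} : Set G) with hC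
  rw [← Nat.card_prod]
  refine Nat.card_le_card_of_injective
    (fun r : C × C => (⟨r.1 * (x * r.2 * x⁻¹), D.mul_mem r.1.2.1 (hn _ r.2.2.1)⟩ : D)) ?_
  rintro ⟨r, r'⟩ ⟨s, s'⟩ e
  have e' : (r : G) * (x * r' * x⁻¹) = s * (x * s' * x⁻¹) := congrArg Subtype.val e
  have hmem : (s' : G) * (r' : G)⁻¹ ∈ C := C.mul_mem s'.2 (C.inv_mem r'.2)
  have he : (s : G)⁻¹ * r = x * ((s' : G) * (r' : G)⁻¹) * x⁻¹ := by
    calc (s : G)⁻¹ * r = (s : G)⁻¹ * (r * (x * r' * x⁻¹)) * (x * r' * x⁻¹)⁻¹ := by group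
      _ = _ := by rw [e']; group
  have hmem2 : (s : G)⁻¹ * r ∈ C := C.mul_mem (C.inv_mem s.2) r.2
  have h1 := eq_one_of_fixed_conj (D := D) hm hx ht hfix hmem.1
    (Subgroup.mem_centralizer_singleton_iff.1 hmem.2).symm
    (he ▸ (Subgroup.mem_centralizer_singleton_iff.1 hmem2.2).symm)
  rw [h1, mul_one, mul_inv_cancel, inv_mul_eq_one] at he
  exact Prod.ext (Subtype.ext he.symm) (Subtype.ext (mul_inv_eq_one.1 h1).symm)

/-- Elementary abelian `D`, `x` of order three: equality. -/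
theorem card_fixed_eq (hx : x ^ 3 = 1) {t : G} (ht : t * x * t⁻¹ = x⁻¹) (ht2 : t * t = 1)
    (htn : ∀ d ∈ D, t * d * t⁻¹ ∈ D) (hn : ∀ d ∈ D, x * d * x⁻¹ ∈ D)
    (hfix : ∀ d ∈ D, Commute x d → d = 1) (hc : ∀ a ∈ D, ∀ b ∈ D, Commute a b)
    (he : ∀ a ∈ D, a * a = 1) :
    Nat.card (D ⊓ Subgroup.centralizer ({t} : Set G) : Subgroup G) *
      Nat.card (D ⊓ Subgroup.centralizer ({t} : Set G) : Subgroup G) = Nat.card D := by
  refine le_antisymm (card_fixed_le (Or.inl rfl) hx ht hn hfix) ?_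
  set C := D ⊓ Subgroup.centralizer ({t} : Set G) with hC
  rw [← Nat.card_prod]
  refine Nat.card_le_card_of_surjective
    (fun r : C × C => (⟨r.1 * (x * r.2 * x⁻¹), D.mul_mem r.1.2.1 (hn _ r.2.2.1)⟩ : D)) ?_
  rintro ⟨d, hd⟩
  set b := t * d * t⁻¹ with hbdef
  have hb : b ∈ D := htn d hd
  set r' := d * b with hr'
  have hr'D : r' ∈ D := D.mul_mem hd hb
  set p := x * r' * x⁻¹ with hp
  have hpD : p ∈ D := hn _ hr'D
  set r := d * p with hr
  have hrD : r ∈ D := D.mul_mem hd hpD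
  have inv_self : ∀ a ∈ D, a⁻¹ = a := fun a ha => inv_eq_of_mul_eq_one_right (he a ha)
  have htt : t⁻¹ = t := inv_eq_of_mul_eq_one_right ht2
  have hr'C : t * r' * t⁻¹ = r' := by
    calc t * r' * t⁻¹ = b * ((t * t) * d * (t * t)⁻¹) := by rw [hr', hbdef]; group
      _ = r' := by rw [ht2, hr', (hc d hd b hb).eq]; group
  have htp : t * p * t⁻¹ = x * p * x⁻¹ := by
    have hxx : x⁻¹ = x * x := inv_eq_of_mul_eq_one_right (by
      rw [← hx]; simp only [pow_succ, pow_zero, one_mul, mul_assoc])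
    calc t * p * t⁻¹ = (t * x * t⁻¹) * (t * r' * t⁻¹) * (t * x * t⁻¹)⁻¹ := by rw [hp]; group
      _ = x⁻¹ * r' * x⁻¹⁻¹ := by rw [ht, hr'C]
      _ = x * p * x⁻¹ := by
        rw [hp, show x * (x * r' * x⁻¹) * x⁻¹ = x * x * r' * (x * x)⁻¹ by group, ← hxx]
  have hrC : t * r * t⁻¹ = r := by
    have h3 : r' * p * (x * p * x⁻¹) = 1 := triple hn hfix hx hr'D
    calc t * r * t⁻¹ = b * (t * p * t⁻¹) := by rw [hr, hbdef]; group
      _ = b * ((r' * p)⁻¹ * (r' * p * (x * p * x⁻¹))) := by rw [htp]; group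
      _ = b * (p⁻¹ * (b⁻¹ * d⁻¹)) := by rw [h3, hr']; group
      _ = b * (p * (b * d)) := by rw [inv_self _ hpD, inv_self _ hb, inv_self _ hd]
      _ = b * b * (p * d) := by rw [← mul_assoc p, (hc p hpD b hb).eq]; group
      _ = r := by rw [he b hb, hr, (hc d hd p hpD).eq, one_mul]
  refine ⟨(⟨r, hrD, Subgroup.mem_centralizer_singleton_iff.2 (mul_inv_eq_iff_eq_mul.1 hrC).symm⟩,
    ⟨r', hr'D, Subgroup.mem_centralizer_singleton_iff.2 (mul_inv_eq_iff_eq_mul.1 hr'C).symm⟩),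
    Subtype.ext ?_⟩
  show r * p = d
  rw [hr, mul_assoc, he p hpD, mul_one]

/-- The `S₃`-lemma: such a 2-group is elementary abelian. -/
theorem Ord5.elementary_of_inverted (h : Ord5 G) (hD : IsPGroup 2 D) (hx : x ^ 3 = 1) (hx1 : x ≠ 1)
    {t : G} (ht : t * x * t⁻¹ = x⁻¹) (hn : ∀ d ∈ D, x * d * x⁻¹ ∈ D)
    (htn : ∀ d ∈ D, t * d * t⁻¹ ∈ D) :
    (∀ a ∈ D, ∀ b ∈ D, Commute a b) ∧ ∀ a ∈ D, a * a = 1 := by
  have hfix := h.fpf hD (Or.inl rfl) hx hx1
  have ht2 := (h.inverting (Or.inl rfl) hx hx1 ht).1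
  have htt : t⁻¹ = t := inv_eq_of_mul_eq_one_right ht2
  have h4 : ∀ a ∈ D, a ^ 4 = 1 := fun a ha => h.pow_of_isPGroup (Or.inl ⟨rfl, rfl⟩) hD ha
  have hxx : x⁻¹ = x * x := inv_eq_of_mul_eq_one_right (by
    rw [← hx]; simp only [pow_succ, pow_zero, one_mul, mul_assoc])
  have hn2 : ∀ d ∈ D, x⁻¹ * d * x⁻¹⁻¹ ∈ D := fun d hd => by
    have e : x⁻¹ * d * x⁻¹⁻¹ = x * (x * d * x⁻¹) * x⁻¹ := by
      rw [show x * (x * d * x⁻¹) * x⁻¹ = x * x * d * (x * x)⁻¹ by group, ← hxx]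
    rw [e]; exact hn _ (hn d hd)
  -- the elements of the cosets `D x` and `D x⁻¹`
  have coset : ∀ w : G, w ^ 3 = 1 → w ≠ 1 → (∀ d ∈ D, w * d * w⁻¹ ∈ D) → ∀ y ∈ D, ∀ a ∈ D,
      Commute a (y * w * a * (y * w)⁻¹) := by
    intro w hw hw1 hwn y hy a ha
    obtain ⟨r, hr, he⟩ := exists_conj_eq hwn (h.fpf hD (Or.inl rfl) hw hw1) hy
    have h3 : (y * w) ^ 3 = 1 := by rw [← he, conj_pow, hw, mul_one, mul_inv_cancel]
    have h1 : y * w ≠ 1 := fun e => hw1 (by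
      rw [← he] at e
      exact conj_eq_one_iff.1 e)
    have hyn : ∀ d ∈ D, y * w * d * (y * w)⁻¹ ∈ D := fun d hd => by
      rw [show y * w * d * (y * w)⁻¹ = y * (w * d * w⁻¹) * y⁻¹ by group]
      exact D.mul_mem (D.mul_mem hy (hwn d hd)) (D.inv_mem hy)
    exact commute_conj hyn (h.fpf hD (Or.inl rfl) h3 h1) h3 ha
  have hE : ∀ a b : D, Commute a (b * a * b⁻¹) := by
    intro a b
    have h1 := coset x hx hx1 hn b b.2 a a.2
    have h2 := coset x⁻¹ (by rw [inv_pow, hx, inv_one]) (inv_ne_one.2 hx1) hn2 b b.2 a a.2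
    have h3 := (h1.mul_right h2).inv_right
    refine Subtype.ext (show (a : G) * (b * a * (b : G)⁻¹) = b * a * (b : G)⁻¹ * a from ?_)
    have e : ((b : G) * a * (b : G)⁻¹) =
        ((b * x * a * (b * x)⁻¹) * (b * x⁻¹ * a * (b * x⁻¹)⁻¹) : G)⁻¹ := by
      refine eq_inv_of_mul_eq_one_left ?_
      calc (b : G) * a * (b : G)⁻¹ * (b * x * a * (b * x)⁻¹ * (b * x⁻¹ * a * (b * x⁻¹)⁻¹))
          = b * (a * (x * a * x⁻¹) * (x⁻¹ * a * x⁻¹⁻¹)) * (b : G)⁻¹ := by group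
        _ = b * (a * (x * a * x⁻¹) * (x * (x * a * x⁻¹) * x⁻¹)) * (b : G)⁻¹ := by
          rw [show x * (x * (a : G) * x⁻¹) * x⁻¹ = x * x * a * (x * x)⁻¹ by group, ← hxx]
        _ = 1 := by rw [triple hn hfix hx a.2, mul_one, mul_inv_cancel]
    rw [← e] at h3
    exact h3.eq
  have hcl := CfsgLib.EngelTwo.commutator_mem_center _ D rfl hD hE
  let s : MulAut D :=
    { toFun := fun a => ⟨x * a * x⁻¹, hn a a.2⟩
      invFun := fun a => ⟨x⁻¹ * a * x⁻¹⁻¹, hn2 a a.2⟩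
      left_inv := fun a => Subtype.ext (show x⁻¹ * (x * a * x⁻¹) * x⁻¹⁻¹ = (a : G) by group)
      right_inv := fun a => Subtype.ext (show x * (x⁻¹ * a * x⁻¹⁻¹) * x⁻¹ = (a : G) by group)
      map_mul' := fun a b => Subtype.ext
        (show x * (a * b : G) * x⁻¹ = x * a * x⁻¹ * (x * b * x⁻¹) by group) }
  let τ : MulAut D :=
    { toFun := fun a => ⟨t * a * t⁻¹, htn a a.2⟩
      invFun := fun a => ⟨t * a * t⁻¹, htn a a.2⟩
      left_inv := fun a => Subtype.ext (show t * (t * a * t⁻¹) * t⁻¹ = (a : G) by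
        calc t * (t * a * t⁻¹) * t⁻¹ = t * t * a * (t * t)⁻¹ := by group
          _ = a := by rw [ht2]; group)
      right_inv := fun a => Subtype.ext (show t * (t * a * t⁻¹) * t⁻¹ = (a : G) by
        calc t * (t * a * t⁻¹) * t⁻¹ = t * t * a * (t * t)⁻¹ := by group
          _ = a := by rw [ht2]; group)
      map_mul' := fun a b => Subtype.ext
        (show t * (a * b : G) * t⁻¹ = t * a * t⁻¹ * (t * b * t⁻¹) by group) }
  obtain ⟨hcom, hexp⟩ := CfsgLib.EngelTwo.comm_of_perm_three_action hcl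
    (fun a => Subtype.ext (by simpa using h4 a a.2)) s τ
    (fun a ha => by
      have e : x * (a : G) * x⁻¹ = a := congrArg Subtype.val ha
      exact Subtype.ext (hfix a a.2 (mul_inv_eq_iff_eq_mul.1 e)))
    (fun a => Subtype.ext (show x * (x * (x * a * x⁻¹) * x⁻¹) * x⁻¹ = (a : G) by
      calc x * (x * (x * a * x⁻¹) * x⁻¹) * x⁻¹ = x ^ 3 * a * (x ^ 3)⁻¹ := by
            simp only [pow_succ, pow_zero, one_mul]; group
        _ = a := by rw [hx]; group))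
    (fun a => Subtype.ext (show t * (x * a * x⁻¹) * t⁻¹ = x * (x * (t * a * t⁻¹) * x⁻¹) * x⁻¹ by
      calc t * (x * a * x⁻¹) * t⁻¹ = (t * x * t⁻¹) * (t * a * t⁻¹) * (t * x * t⁻¹)⁻¹ := by group
        _ = x⁻¹ * (t * a * t⁻¹) * x⁻¹⁻¹ := by rw [ht]
        _ = _ := by
          rw [show x * (x * (t * a * t⁻¹) * x⁻¹) * x⁻¹ = x * x * (t * a * t⁻¹) * (x * x)⁻¹ by group,
            ← hxx]))
    (fun a => Subtype.ext (triple hn hfix hx a.2))
    (fun a => Subtype.ext (commute_conj hn hfix hx a.2).eq)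
    (fun a => Subtype.ext (show (t * a * t⁻¹ * a : G) ^ 2 = 1 by
      rcases h (t * a) with e | e | e
      · calc (t * a * t⁻¹ * a : G) ^ 2 = (t * a) ^ 4 := by
              rw [htt]; simp only [pow_succ, pow_zero, one_mul, mul_assoc]
          _ = 1 := e
      all_goals
        exfalso
        have hw : (t * a : G) ^ 2 ∈ D := by
          rw [pow_two, show t * a * (t * a) = t * (a : G) * t⁻¹ * (a : G) by rw [htt]; group]
          exact D.mul_mem (htn a a.2) a.2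
        have hw1 : t * (a : G) = 1 := eq_one_of_pow_coprime (by norm_num)
          ((pow_mul _ 2 4).trans (h4 _ hw)) e
        have htD : t ∈ D := by rw [eq_inv_of_mul_eq_one_left hw1]; exact D.inv_mem a.2
        have hxD : x⁻¹ * x⁻¹ ∈ D := by
          have e2 : x⁻¹ * x⁻¹ = t * (x * t⁻¹ * x⁻¹) := by rw [← ht]; group
          rw [e2]; exact D.mul_mem htD (hn _ (D.inv_mem htD))
        have e3 : x⁻¹ * x⁻¹ = 1 := eq_one_of_pow_coprime (by norm_num) (h4 _ hxD)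
          (show (x⁻¹ * x⁻¹) ^ 3 = 1 by rw [(Commute.refl x⁻¹).mul_pow, inv_pow, hx, inv_one, one_mul])
        rw [hxx] at e3
        exact hx1 (eq_one_of_pow_coprime (m := 4) (n := 3) (by norm_num) (by
          rw [← e3]; simp only [pow_succ, pow_zero, one_mul, mul_assoc]) hx)))
  exact ⟨fun a ha b hb => congrArg Subtype.val (hcom ⟨a, ha⟩ ⟨b, hb⟩),
    fun a ha => by simpa [pow_two] using congrArg Subtype.val (hexp ⟨a, ha⟩)⟩

end Fixed

end CfsgLib.SpecFive
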