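import Cfsg.Agent.SpecFive.Tools
import Cfsg.Agent.PSL2Spectrum.Local
import Cfsg.Agent.PushingUp.ModuleBound

/-!
# Sylow subgroups for three and five with an inverted element, and the arithmetic for order `64 · 3ᵇ · 5ᶜ`
-/

set_option autoImplicit false
set_option linter.unusedSectionVars false
set_option linter.style.haveILetI false

namespace CfsgLib.SpecFive

variable {G : Type*} [Group G] [Finite G]

theorem Ord5.orderOf_of_dvd (h : Ord5 G) {p : ℕ} (hp : p = 3 ∨ p = 5) {g : G} (hd : p ∣ orderOf g) :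
    orderOf g = p := by
  have hpp : p.Prime := by rcases hp with rfl | rfl <;> norm_num
  obtain ⟨l, hl, hl'⟩ := h.exists_exp g
  have h1 := orderOf_dvd_of_pow_eq_one hl'
  have h2 := hd.trans h1
  have hlp : l = p := by
    rcases hl with rfl | rfl | rfl <;> rcases hp with rfl | rfl <;> revert h2 <;> decide
  subst hlp
  exact Nat.dvd_antisymm h1 hd

/-- The normaliser of a Sylow subgroup containing an inverted element. -/
theorem Ord5.sylow_congruence (h : Ord5 G) {p : ℕ} (hp : p = 3 ∨ p = 5) {y t : G} (hy : y ^ p = 1)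
    (hy1 : y ≠ 1) (ht : t * y * t⁻¹ = y⁻¹) :
    ∃ (b i N : ℕ), 1 ≤ b ∧ 2 ^ i ≤ p ^ b - 1 ∧ (p ^ b) ∣ Nat.card G ∧ ¬ p ^ (b + 1) ∣ Nat.card G ∧
      2 ^ i ∣ Nat.card G ∧ Nat.card G = p ^ b * 2 ^ i * N ∧ p ^ b ∣ N - 1 := by
  have hpp : p.Prime := by rcases hp with rfl | rfl <;> norm_num
  haveI := Fact.mk hpp
  have hp2 : p ≠ 2 := by omega
  have hk : Kind p p := by
    rcases hp with rfl | rfl
    exacts [Or.inr (Or.inl ⟨rfl, rfl⟩), Or.inr (Or.inr ⟨rfl, rfl⟩)]
  have hzy : IsPGroup p (Subgroup.zpowers y) := IsPGroup.of_card (n := 1) (by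
    rw [Nat.card_zpowers, orderOf_eq_prime hy hy1, pow_one])
  obtain ⟨P, hP⟩ := hzy.exists_le_sylow
  have hyP : y ∈ (P : Subgroup G) := hP (Subgroup.mem_zpowers y)
  have hTI : ∀ Q : Sylow p G, ∀ w : G, w ∈ (Q : Subgroup G) → w ∈ (P : Subgroup G) → w ≠ 1 → Q = P := by
    intro Q w hQ hw hw1
    by_contra hne
    have := CfsgLib.PSL2Spectrum.sylow_inf_eq_bot hp2 (fun g hd => h.orderOf_of_dvd hp hd) hne
    exact hw1 (Subgroup.mem_bot.1 (this ▸ Subgroup.mem_inf.2 ⟨hQ, hw⟩))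
  have hCy : Subgroup.centralizer ({y} : Set G) ≤ (P : Subgroup G) := by
    obtain ⟨Q, hQ⟩ := (h.isPGroup_centralizer hk hy hy1).exists_le_sylow
    rwa [hTI Q y (hQ (Subgroup.mem_centralizer_singleton_iff.2 rfl)) hyP hy1] at hQ
  have htN : t ∈ Subgroup.normalizer ((P : Subgroup G) : Set G) := by
    have htP : t • P = P := by
      refine hTI _ y⁻¹ ?_ ((P : Subgroup G).inv_mem hyP) (inv_ne_one.2 hy1)
      rw [← ht]
      exact Subgroup.smul_mem_pointwise_smul y (MulAut.conj t) (P : Subgroup G) hyP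
    exact Sylow.smul_eq_iff_mem_normalizer.1 htP
  obtain ⟨ht2, ht1⟩ := h.inverting (by omega) hy hy1 ht
  have invP : ∀ u : G, u * u = 1 → u ≠ 1 → u ∈ Subgroup.normalizer ((P : Subgroup G) : Set G) →
      ∀ a ∈ (P : Subgroup G), u * a * u⁻¹ = a⁻¹ := by
    intro u hu hu1 huN a ha
    let φ : MulAut (P : Subgroup G) :=
      { toFun := fun b => ⟨u * b * u⁻¹, (Subgroup.mem_normalizer_iff.1 huN b).1 b.2⟩
        invFun := fun b => ⟨u * b * u⁻¹, (Subgroup.mem_normalizer_iff.1 huN b).1 b.2⟩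
        left_inv := fun b => Subtype.ext (show u * (u * b * u⁻¹) * u⁻¹ = (b : G) by
          calc u * (u * b * u⁻¹) * u⁻¹ = u * u * b * (u * u)⁻¹ := by group
            _ = b := by rw [hu]; group)
        right_inv := fun b => Subtype.ext (show u * (u * b * u⁻¹) * u⁻¹ = (b : G) by
          calc u * (u * b * u⁻¹) * u⁻¹ = u * u * b * (u * u)⁻¹ := by group
            _ = b := by rw [hu]; group)
        map_mul' := fun b c => Subtype.ext
          (show u * (b * c : G) * u⁻¹ = u * b * u⁻¹ * (u * c * u⁻¹) by group) }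
    have hfpf : MonoidHom.FixedPointFree φ := fun b hb => by
      have e : u * (b : G) * u⁻¹ = b := congrArg Subtype.val hb
      refine Subtype.ext ?_
      have hb' := h.pow_of_isPGroup hk P.2 b.2
      have hu4 : u ^ 4 = 1 := by rw [show (4 : ℕ) = 2 * 2 from rfl, pow_mul, pow_two u, hu, one_pow]
      have hb4 := h.pow_eq_one_of_commute (m := 4) (by omega) hu4 hu1 (mul_inv_eq_iff_eq_mul.1 e)
      exact eq_one_of_pow_coprime (by rcases hp with rfl | rfl <;> norm_num) hb' hb4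
    have hinv : Function.Involutive φ := fun b => φ.left_inv b
    exact congrArg Subtype.val (congrFun (hfpf.coe_eq_inv_of_involutive hinv) ⟨a, ha⟩)
  have hcomm : ∀ a ∈ (P : Subgroup G), ∀ b ∈ (P : Subgroup G), Commute a b := by
    intro a ha b hb
    have hab := invP t ht2 ht1 htN (a * b) ((P : Subgroup G).mul_mem ha hb)
    rw [show t * (a * b) * t⁻¹ = t * a * t⁻¹ * (t * b * t⁻¹) by group, invP t ht2 ht1 htN a ha,
      invP t ht2 ht1 htN b hb, ← mul_inv_rev, inv_inj] at hab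
    exact hab.symm
  set N := Subgroup.normalizer ((P : Subgroup G) : Set G) with hN
  set F := N ⊓ Subgroup.centralizer ({t} : Set G) with hF
  have ht4 : t ^ 4 = 1 := by rw [show (4 : ℕ) = 2 * 2 from rfl, pow_mul, pow_two t, ht2, one_pow]
  have hFp : IsPGroup 2 F :=
    (h.isPGroup_centralizer (Or.inl ⟨rfl, rfl⟩) ht4 ht1).to_le inf_le_right
  have hPN : (P : Subgroup G) ≤ N := Subgroup.le_normalizer
  have hPF : ∀ w ∈ (P : Subgroup G), w ∈ F → w = 1 := fun w hw hwF =>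
    eq_one_of_pow_coprime (by rcases hp with rfl | rfl <;> norm_num) (h.pow_of_isPGroup hk P.2 hw)
      (h.pow_of_isPGroup (Or.inl ⟨rfl, rfl⟩) hFp hwF)
  have hprod : ∀ g ∈ N, ∃ s ∈ (P : Subgroup G), s⁻¹ * g ∈ F := by
    intro g hg
    have hu : g * t * g⁻¹ * (g * t * g⁻¹) = 1 := by
      calc g * t * g⁻¹ * (g * t * g⁻¹) = g * (t * t) * g⁻¹ := by group
        _ = 1 := by rw [ht2, mul_one, mul_inv_cancel]
    have hu1 : g * t * g⁻¹ ≠ 1 := fun e => ht1 (conj_eq_one_iff.1 e)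
    have huN : g * t * g⁻¹ ∈ N := N.mul_mem (N.mul_mem hg htN) (N.inv_mem hg)
    set w := t * (g * t * g⁻¹) with hw
    have hwP : w ∈ (P : Subgroup G) := hCy (Subgroup.mem_centralizer_singleton_iff.2 (mul_inv_eq_iff_eq_mul.1 (by
      calc w * y * w⁻¹ = t * (g * t * g⁻¹ * y * (g * t * g⁻¹)⁻¹) * t⁻¹ := by rw [hw]; group
        _ = y := by rw [invP _ hu hu1 huN y hyP, ← conj_inv, ht, inv_inv])))
    obtain ⟨q, hq⟩ : ∃ q, p = 2 * q + 1 := hpp.odd_of_ne_two hp2
    have hwp := h.pow_of_isPGroup hk P.2 hwP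
    refine ⟨w ^ q, (P : Subgroup G).pow_mem hwP q, N.mul_mem (N.inv_mem (hPN ((P : Subgroup G).pow_mem hwP q))) hg,
      Subgroup.mem_centralizer_singleton_iff.2 (mul_inv_eq_iff_eq_mul.1 ?_)⟩
    have e1 : g * t * g⁻¹ = t * w := by
      rw [hw, ← mul_assoc, ht2, one_mul]
    have e2 : t * w ^ q * t⁻¹ = (w ^ q)⁻¹ := invP t ht2 ht1 htN _ ((P : Subgroup G).pow_mem hwP q)
    calc (w ^ q)⁻¹ * g * t * ((w ^ q)⁻¹ * g)⁻¹ = (w ^ q)⁻¹ * (g * t * g⁻¹) * w ^ q := by group
      _ = (t * w ^ q * t⁻¹) * t * w * w ^ q := by rw [e1, e2]; group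
      _ = t * (w ^ q * w * w ^ q) := by group
      _ = t := by rw [← pow_succ, ← pow_add, show q + 1 + q = p by omega, hwp, mul_one]
  have hcardN : Nat.card N = Nat.card (P : Subgroup G) * Nat.card F := by
    rw [← Nat.card_prod]
    refine (Nat.card_eq_of_bijective (fun r : ↥(P : Subgroup G) × ↥F => (⟨(r.1 : G) * (r.2 : G), N.mul_mem (hPN r.1.2) r.2.2.1⟩ : N))
      ⟨?_, ?_⟩).symm
    · rintro ⟨a, b⟩ ⟨c, d⟩ e
      have e' : (a : G) * b = c * d := congrArg Subtype.val e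
      have e'' : (c : G)⁻¹ * a = d * (b : G)⁻¹ := by
        calc (c : G)⁻¹ * a = (c : G)⁻¹ * (a * b) * (b : G)⁻¹ := by group
          _ = _ := by rw [e']; group
      have h1 := hPF _ ((P : Subgroup G).mul_mem ((P : Subgroup G).inv_mem c.2) a.2)
        (e'' ▸ F.mul_mem d.2 (F.inv_mem b.2))
      rw [h1] at e''
      exact Prod.ext (Subtype.ext (inv_mul_eq_one.1 h1).symm) (Subtype.ext (mul_inv_eq_one.1 e''.symm).symm)
    · rintro ⟨g, hg⟩
      obtain ⟨s, hs, hsF⟩ := hprod g hg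
      exact ⟨(⟨s, hs⟩, ⟨s⁻¹ * g, hsF⟩), Subtype.ext (mul_inv_cancel_left s g)⟩
  obtain ⟨b, hb⟩ := IsPGroup.iff_card.1 P.2
  obtain ⟨i, hi⟩ := IsPGroup.iff_card.1 hFp
  have hFle : 2 ^ i ≤ p ^ b - 1 := by
    rw [← hi, ← hb]
    have hsub : Nat.card {a : (P : Subgroup G) // a ≠ 1} = Nat.card (P : Subgroup G) - 1 := by
      classical
      haveI := Fintype.ofFinite (P : Subgroup G)
      rw [Nat.card_eq_fintype_card, Nat.card_eq_fintype_card, Fintype.card_subtype_compl,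
        Fintype.card_subtype_eq]
    rw [← hsub]
    refine Nat.card_le_card_of_injective (fun k : F => (⟨⟨k * y * (k : G)⁻¹,
      (Subgroup.mem_normalizer_iff.1 k.2.1 y).1 hyP⟩, fun e => hy1
        (conj_eq_one_iff.1 (congrArg Subtype.val e))⟩ : {a : (P : Subgroup G) // a ≠ 1})) ?_
    intro k l e
    have e' : (k : G) * y * (k : G)⁻¹ = l * y * (l : G)⁻¹ :=
      congrArg (fun a : {a : (P : Subgroup G) // a ≠ 1} => ((a : (P : Subgroup G)) : G)) e
    have hmem : (l : G)⁻¹ * k ∈ Subgroup.centralizer ({y} : Set G) :=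
      Subgroup.mem_centralizer_singleton_iff.2 (by
        calc (l : G)⁻¹ * k * y = (l : G)⁻¹ * (k * y * (k : G)⁻¹) * k := by group
          _ = y * ((l : G)⁻¹ * k) := by rw [e']; group)
    exact Subtype.ext (inv_mul_eq_one.1 (hPF _ (hCy hmem) (F.mul_mem (F.inv_mem l.2) k.2))).symm
  refine ⟨b, i, N.index, ?_, hFle, hb ▸ Subgroup.card_subgroup_dvd_card _, ?_,
    hi ▸ Subgroup.card_subgroup_dvd_card _, ?_, ?_⟩
  · by_contra hb0
    rw [show b = 0 by omega, pow_zero] at hb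
    have := Subgroup.eq_bot_of_card_eq _ hb
    rw [this, Subgroup.mem_bot] at hyP
    exact hy1 hyP
  · intro hd
    rw [P.card_eq_multiplicity] at hb
    have := (hpp.pow_dvd_iff_le_factorization Nat.card_pos.ne').1 hd
    have := Nat.pow_right_injective hpp.two_le hb
    omega
  · rw [← hb, ← hi, ← hcardN, Subgroup.card_mul_index]
  · rw [show N.index = Nat.card (Sylow p G) from P.card_eq_index_normalizer.symm, ← hb]
    classical
    haveI := Fintype.ofFinite (Sylow p G)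
    have hsub : Nat.card {Q : Sylow p G // Q ≠ P} = Nat.card (Sylow p G) - 1 := by
      rw [Nat.card_eq_fintype_card, Nat.card_eq_fintype_card, Fintype.card_subtype_compl,
        Fintype.card_subtype_eq]
    rw [← hsub]
    letI act : MulAction (P : Subgroup G) {Q : Sylow p G // Q ≠ P} :=
      { smul := fun g Q => ⟨(g : G) • Q.1, fun e => Q.2 (by
          rw [← inv_smul_smul (g : G) Q.1, e, Sylow.smul_eq_iff_mem_normalizer.2 (hPN ((P : Subgroup G).inv_mem g.2))])⟩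
        one_smul := fun Q => Subtype.ext (one_smul G Q.1)
        mul_smul := fun g g' Q => Subtype.ext (mul_smul (g : G) g' Q.1) }
    refine CfsgLib.PushingUp.dvd_card_of_free fun Q => ?_
    rw [Subgroup.eq_bot_iff_forall]
    intro g hgQ
    by_contra hg1
    have hgQ' : (g : G) • Q.1 = Q.1 := congrArg Subtype.val hgQ
    have hgN := Sylow.smul_eq_iff_mem_normalizer.1 hgQ'
    have hp' : IsPGroup p ((Q.1 : Subgroup G) ⊔ Subgroup.zpowers (g : G) : Subgroup G) :=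
      Q.1.2.to_sup_of_normal_left' (P.2.to_le (Subgroup.zpowers_le.2 g.2)) (Subgroup.zpowers_le.2 hgN)
    exact Q.2 (hTI Q.1 g ((Q.1.3 hp' le_sup_left).le
      (le_sup_right (a := (Q.1 : Subgroup G)) (Subgroup.mem_zpowers (g : G)))) g.2 (fun e => hg1 (Subtype.ext e)))

theorem bound_aux {X Y A e f : ℕ} (hX : 0 < X) (hY : 0 < Y) (he : 0 < e) (hf : 0 < f) (heA : e ≤ A)
    (hfA : f ≤ A) (h1 : X ∣ A * Y - e) (h2 : Y ∣ A * X - f) : X * Y ≤ A * A * (X + Y) := by
  have l1 : e ≤ A * Y := heA.trans (Nat.le_mul_of_pos_right A hY)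
  have l2 : f ≤ A * X := hfA.trans (Nat.le_mul_of_pos_right A hX)
  obtain ⟨k, hk⟩ := h1
  obtain ⟨l, hl⟩ := h2
  have a1 : (A * Y : ℤ) - e = X * k := by
    have := congrArg (fun n : ℕ => (n : ℤ)) hk
    simp only [Nat.cast_sub l1, Nat.cast_mul] at this
    exact this
  have a2 : (A * X : ℤ) - f = Y * l := by
    have := congrArg (fun n : ℕ => (n : ℤ)) hl
    simp only [Nat.cast_sub l2, Nat.cast_mul] at this
    exact this
  have main : ((X * Y : ℕ) : ℤ) ∣ ((A * Y * f + A * X * e : ℕ) : ℤ) - (e * f : ℕ) :=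
    ⟨(A : ℤ) * A - k * l, by push_cast; linear_combination -(A * Y - e : ℤ) * a2 - (Y * l : ℤ) * a1⟩
  have hpos : (0 : ℤ) < ((A * Y * f + A * X * e : ℕ) : ℤ) - (e * f : ℕ) := by
    have h3 : e * f ≤ A * Y * f := Nat.mul_le_mul_right f l1
    have h4 : 0 < A * X * e := Nat.mul_pos (Nat.mul_pos (he.trans_le heA) hX) he
    omega
  have h5 := Int.le_of_dvd hpos main
  have h6 : A * Y * f + A * X * e ≤ A * A * (X + Y) := by
    have : A * Y * f ≤ A * Y * A := Nat.mul_le_mul_left _ hfA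
    have : A * X * e ≤ A * X * A := Nat.mul_le_mul_left _ heA
    nlinarith
  omega

theorem search_aux : ((List.range 12).all fun b => (List.range 9).all fun c => (List.range 7).all fun i =>
    (List.range 7).all fun j =>
      !(1 ≤ b && 1 ≤ c && 2 ^ i ≤ 3 ^ b - 1 && 2 ^ j ≤ 5 ^ c - 1 &&
        (64 * 5 ^ c - 2 ^ i) % 3 ^ b == 0 && (64 * 3 ^ b - 2 ^ j) % 5 ^ c == 0) || (b == 1 && c == 1)) = true := by
  decide +kernel

theorem search {b c i j : ℕ} (hb : b < 12) (hc : c < 9) (hi : i < 7) (hj : j < 7) (h1 : 1 ≤ b) (h2 : 1 ≤ c)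
    (h3 : 2 ^ i ≤ 3 ^ b - 1) (h4 : 2 ^ j ≤ 5 ^ c - 1) (h5 : (64 * 5 ^ c - 2 ^ i) % 3 ^ b = 0)
    (h6 : (64 * 3 ^ b - 2 ^ j) % 5 ^ c = 0) : b = 1 ∧ c = 1 := by
  have h := search_aux
  simp only [List.all_eq_true, List.mem_range] at h
  have := h b hb c hc i hi j hj
  simpa [h1, h2, h3, h4, h5, h6] using this

/-- The congruences leave only the order `960`. -/
theorem only_small {b c i j : ℕ} (hb : 1 ≤ b) (hc : 1 ≤ c) (hi : i ≤ 6) (hj : j ≤ 6)
    (he : 2 ^ i ≤ 3 ^ b - 1) (hf : 2 ^ j ≤ 5 ^ c - 1) (h1 : 3 ^ b ∣ 64 * 5 ^ c - 2 ^ i)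
    (h2 : 5 ^ c ∣ 64 * 3 ^ b - 2 ^ j) : b = 1 ∧ c = 1 := by
  have hi' : 2 ^ i ≤ 64 := le_trans (Nat.pow_le_pow_right (by norm_num) hi) (by norm_num)
  have hj' : 2 ^ j ≤ 64 := le_trans (Nat.pow_le_pow_right (by norm_num) hj) (by norm_num)
  have hX : 0 < 3 ^ b := pow_pos (by norm_num) b
  have hY : 0 < 5 ^ c := pow_pos (by norm_num) c
  have hb' := bound_aux hX hY (pow_pos (by norm_num) i) (pow_pos (by norm_num) j) hi' hj' h1 h2
  have p1 : 0 < 64 * 5 ^ c - 2 ^ i := by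
    have : 5 ≤ 5 ^ c := le_self_pow₀ (by norm_num) (by omega)
    omega
  have p2 : 0 < 64 * 3 ^ b - 2 ^ j := by
    have : 3 ≤ 3 ^ b := le_self_pow₀ (by norm_num) (by omega)
    omega
  have q1 : 3 ^ b ≤ 64 * 5 ^ c := (Nat.le_of_dvd p1 h1).trans (Nat.sub_le _ _)
  have q2 : 5 ^ c ≤ 64 * 3 ^ b := (Nat.le_of_dvd p2 h2).trans (Nat.sub_le _ _)
  have r : 3 ^ b < 3 ^ 13 ∧ 5 ^ c < 5 ^ 9 ∧ 3 ^ b ≤ 524288 ∧ 5 ^ c ≤ 524288 := by
    norm_num
    rcases le_total (3 ^ b) (5 ^ c) with hle | hle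
    · have : 3 ^ b ≤ 8192 := by
        by_contra hlt
        nlinarith
      omega
    · have : 5 ^ c ≤ 8192 := by
        by_contra hlt
        nlinarith
      omega
  have hb12 : b < 12 := by
    by_contra hge
    have := Nat.pow_le_pow_right (show 0 < 3 by norm_num) (not_lt.1 hge)
    norm_num at this
    omega
  have hc9 : c < 9 := by
    by_contra hge
    have := Nat.pow_le_pow_right (show 0 < 5 by norm_num) (not_lt.1 hge)
    norm_num at this
    omega
  exact search hb12 hc9 (by omega : i < 7) (by omega : j < 7) hb hc he hf (Nat.mod_eq_zero_of_dvd h1)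
    (Nat.mod_eq_zero_of_dvd h2)

end CfsgLib.SpecFive
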