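import Cfsg.Agent.SpecFive.Basic
import Cfsg.Agent.Eq.Def_Transfer
import Cfsg.Agent.Constrained.Basic
import Cfsg.Agent.CN.Quotient
import Cfsg.Agent.BaerSuzuki.Basic

/-!
# Tools for groups with element orders at most five

Counting fixed points, the impossibility of non-cyclic fixed-point-free actions, and inverted
elements outside `O₂`.
-/

set_option autoImplicit false
set_option linter.unusedSectionVars false
set_option linter.style.haveILetI false

namespace CfsgLib.SpecFive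

open Cfsg

variable {G : Type*} [Group G] [Finite G]

/-- An element of prime order conjugating a set onto itself: the fixed points count modulo `p`. -/
theorem card_fixed_modEq {p : ℕ} (hp : p.Prime) {x : G} (hx : x ^ p = 1) (X : Set G)
    (hX : ∀ a ∈ X, x * a * x⁻¹ ∈ X) :
    Nat.card X ≡ Nat.card {a : X // Commute x (a : G)} [MOD p] := by
  classical
  haveI := Fact.mk hp
  haveI := Fintype.ofFinite X
  let f : Function.End X := fun a => (⟨x * a * x⁻¹, hX a a.2⟩ : X)
  have hf : ∀ (k : ℕ) (a : X), (((f ^ k : Function.End X) a : X) : G) = x ^ k * a * (x ^ k)⁻¹ := by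
    intro k
    induction k with
    | zero => intro a; show (a : G) = _; simp
    | succ k ih =>
      intro a
      rw [pow_succ]
      show (((f ^ k : Function.End X) (f a) : X) : G) = _
      rw [ih]
      show x ^ k * (x * a * x⁻¹) * (x ^ k)⁻¹ = _
      rw [pow_succ]; group
  have h := Equiv.Perm.card_fixedPoints_modEq (α := X) (f := f) (p := p) (n := 1) (by
    funext a
    show ((f ^ p ^ 1 : Function.End X) a) = a
    apply Subtype.ext
    rw [pow_one, hf, hx]; group)
  rw [Nat.card_eq_fintype_card]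
  refine h.trans (congrArg (· % p) ?_)
  rw [← Nat.card_eq_fintype_card]
  refine Nat.card_congr
    { toFun := fun a => ⟨a.1, mul_inv_eq_iff_eq_mul.1 (congrArg Subtype.val a.2)⟩
      invFun := fun a => ⟨a.1, Subtype.ext (mul_inv_eq_iff_eq_mul.2 a.2)⟩
      left_inv := fun a => rfl
      right_inv := fun a => rfl }

theorem exists_fixed {p : ℕ} (hp : p.Prime) {x : G} (hx : x ^ p = 1) (X : Set G)
    (hX : ∀ a ∈ X, x * a * x⁻¹ ∈ X) (h : ¬ p ∣ Nat.card X) : ∃ a ∈ X, Commute x a := by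
  by_contra hne
  push Not at hne
  have h0 : Nat.card {a : X // Commute x (a : G)} = 0 := by
    haveI : IsEmpty {a : X // Commute x (a : G)} := ⟨fun a => hne a.1 a.1.2 a.2⟩
    exact Nat.card_of_isEmpty
  have := card_fixed_modEq hp hx X hX
  rw [h0] at this
  exact h (Nat.modEq_zero_iff_dvd.1 this)

theorem card_modEq_one {p : ℕ} (hp : p.Prime) {x : G} (hx : x ^ p = 1) (D : Subgroup G)
    (hn : ∀ d ∈ D, x * d * x⁻¹ ∈ D) (hfix : ∀ d ∈ D, Commute x d → d = 1) :
    Nat.card D ≡ 1 [MOD p] := by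
  refine (card_fixed_modEq hp hx (D : Set G) hn).trans (congrArg (· % p) ?_)
  haveI : Unique {a : (D : Set G) // Commute x (a : G)} :=
    { default := ⟨⟨1, D.one_mem⟩, Commute.one_right x⟩
      uniq := fun a => Subtype.ext (Subtype.ext (hfix _ a.1.2 a.2)) }
  exact Nat.card_unique

theorem Ord5.pow_of_image (h : Ord5 G) {H : Type*} [Group H] (f : G →* H) {g : G} {m : ℕ}
    (hm : m = 3 ∨ m = 4 ∨ m = 5) (hgm : f g ^ m = 1) (hg1 : f g ≠ 1) : g ^ m = 1 := by
  obtain ⟨l, hl, he⟩ := h.exists_exp g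
  by_cases hlm : l = m
  · rwa [hlm] at he
  exact absurd (eq_one_of_pow_coprime (coprime_of_ne hl hm hlm)
    (by rw [← map_pow, he, map_one]) hgm) hg1

/-- A group of order `p²` cannot act without fixed points on a non-trivial abelian 2-group. -/
theorem eq_one_of_lines {V : Type*} [CommGroup V] {p : ℕ} (hp : p.Prime) (hp2 : p ≠ 2) (A B : MulAut V)
    (hA : A ^ p = 1) (hB : B ^ p = 1) (hAB : Commute A B)
    (hfA : ∀ k : ℕ, ∀ v : V, (A * B ^ k) v = v → v = 1)
    (hfB : ∀ i : ℕ, 0 < i → i < p → ∀ v : V, (B ^ i) v = v → v = 1) {v : V} {n : ℕ} (hv : v ^ 2 ^ n = 1) :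
    v = 1 := by
  have norm : ∀ w : MulAut V, w ^ p = 1 → (∀ u, w u = u → u = 1) →
      ∏ i ∈ Finset.range p, (w ^ i) v = 1 := by
    intro w hw hfix
    refine hfix _ ?_
    rw [map_prod]
    have h1 := Finset.prod_range_succ (fun i => (w ^ i) v) p
    have h2 := Finset.prod_range_succ' (fun i => (w ^ i) v) p
    rw [h1, hw, pow_zero] at h2
    refine Eq.trans ?_ (mul_right_cancel h2).symm
    exact Finset.prod_congr rfl fun i _ => by rw [pow_succ', MulAut.mul_apply]
  have hpos := hp.pos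
  have hwk : ∀ k, (A * B ^ k) ^ p = 1 := fun k => by
    rw [(hAB.pow_right k).mul_pow, hA, one_mul, ← pow_mul, mul_comm, pow_mul, hB, one_pow]
  have tot : ∏ i ∈ Finset.range p, ∏ k ∈ Finset.range p, ((A * B ^ k) ^ i) v = 1 := by
    rw [Finset.prod_comm]
    exact Finset.prod_eq_one fun k _ => norm _ (hwk k) (hfA k)
  obtain ⟨q, hq⟩ := Nat.exists_eq_succ_of_ne_zero hpos.ne'
  rw [hq, Finset.prod_range_succ'] at tot
  have h0 : ∏ i ∈ Finset.range q, ∏ k ∈ Finset.range (q + 1), ((A * B ^ k) ^ (i + 1)) v = 1 := by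
    refine Finset.prod_eq_one fun i hi => ?_
    rw [Finset.mem_range] at hi
    have e : ∀ k, ((A * B ^ k) ^ (i + 1)) v = (A ^ (i + 1)) (((B ^ (i + 1)) ^ k) v) := fun k => by
      rw [(hAB.pow_right k).mul_pow, ← pow_mul B, ← pow_mul B, mul_comm k, MulAut.mul_apply]
    simp only [e, ← map_prod]
    have := norm (B ^ (i + 1)) (by rw [← pow_mul, mul_comm, pow_mul, hB, one_pow])
      (hfB _ (Nat.succ_pos i) (by omega))
    rw [hq] at this
    rw [this, map_one]
  rw [h0, one_mul] at tot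
  simp only [pow_zero, MulAut.one_apply, Finset.prod_const, Finset.card_range] at tot
  have hco : (q + 1).Coprime (2 ^ n) := by
    rw [← Nat.succ_eq_add_one, ← hq]
    exact (Nat.coprime_primes hp Nat.prime_two |>.2 hp2).pow_right n
  exact eq_one_of_pow_coprime hco tot hv

/-- No non-cyclic elementary group of order `p²`, `p` odd, in the quotient by a non-trivial normal
2-subgroup. -/
theorem Ord5.no_noncyclic (h : Ord5 G) {O : Subgroup G} [O.Normal] (hO : IsPGroup 2 O) (hO1 : O ≠ ⊥)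
    {m : ℕ} (hm : m = 3 ∨ m = 5) {a b : G ⧸ O} (hab : Commute a b) (ha : a ^ m = 1) (hb : b ^ m = 1)
    (hb1 : b ≠ 1) (hna : a ∉ Subgroup.zpowers b) : False := by
  classical
  haveI : Fact (Nat.Prime 2) := ⟨Nat.prime_two⟩
  have hmp : m.Prime := by rcases hm with rfl | rfl <;> norm_num
  set V : Subgroup G := (Subgroup.center O).map O.subtype with hVdef
  haveI : V.Normal := by rw [hVdef]; exact ConjAct.normal_of_characteristic_of_normal
  have hVO : V ≤ O := Subgroup.map_subtype_le _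
  have hcomm : ∀ g ∈ O, ∀ v ∈ V, Commute g v := by
    rintro g hg _ ⟨z, hz, rfl⟩
    exact congrArg Subtype.val (Subgroup.mem_center_iff.1 hz ⟨g, hg⟩)
  letI : CommGroup V := { (inferInstance : Group V) with
    mul_comm := fun u w => Subtype.ext (hcomm u (hVO u.2) w w.2).eq }
  let φ : G →* MulAut V := MulAut.conjNormal
  have hker : O ≤ φ.ker := fun g hg => by
    rw [MonoidHom.mem_ker]
    ext v
    show g * (v : G) * g⁻¹ = v
    rw [(hcomm g hg v v.2).eq, mul_inv_cancel_right]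
  let ψ : G ⧸ O →* MulAut V := QuotientGroup.lift O φ hker
  have fix : ∀ w : G ⧸ O, w ^ m = 1 → w ≠ 1 → ∀ v : V, ψ w v = v → v = 1 := by
    intro w hw hw1 v hv
    obtain ⟨g, rfl⟩ := QuotientGroup.mk'_surjective O w
    have hgm := h.pow_of_image (QuotientGroup.mk' O) (by omega) hw hw1
    have e : g * (v : G) * g⁻¹ = v := congrArg Subtype.val hv
    exact Subtype.ext (h.fpf hO hm hgm (fun e => hw1 (by rw [e, map_one])) v (hVO v.2)
      (mul_inv_eq_iff_eq_mul.1 e))
  have hob : orderOf b = m := (haveI := Fact.mk hmp; orderOf_eq_prime hb hb1)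
  obtain ⟨z, hzV, hz1⟩ : ∃ z ∈ V, z ≠ 1 := by
    haveI : Nontrivial O := O.nontrivial_iff_ne_bot.2 hO1
    haveI := hO.center_nontrivial
    obtain ⟨z, hz⟩ := exists_ne (1 : Subgroup.center O)
    exact ⟨((z : O) : G), ⟨z, z.2, rfl⟩, fun e => hz (Subtype.ext (Subtype.ext e))⟩
  obtain ⟨n, hn⟩ := hO.to_le hVO ⟨z, hzV⟩
  refine hz1 (congrArg Subtype.val (eq_one_of_lines hmp (by omega) (ψ a) (ψ b)
    (by rw [← map_pow, ha, map_one]) (by rw [← map_pow, hb, map_one]) (hab.map ψ) ?_ ?_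
    (v := (⟨z, hzV⟩ : V)) hn))
  · intro k v hv
    rw [← map_pow, ← map_mul] at hv
    refine fix _ ?_ (fun e => hna ?_) v hv
    · rw [(hab.pow_right k).mul_pow, ha, ← pow_mul, mul_comm, pow_mul, hb, one_pow, one_mul]
    · rw [eq_inv_of_mul_eq_one_left e]
      exact Subgroup.inv_mem _ (Subgroup.pow_mem _ (Subgroup.mem_zpowers b) k)
  · intro i hi hip v hv
    rw [← map_pow] at hv
    refine fix _ (by rw [← pow_mul, mul_comm, pow_mul, hb, one_pow]) (fun e => ?_) v hv
    exact Nat.not_dvd_of_pos_of_lt hi hip (hob ▸ orderOf_dvd_of_pow_eq_one e)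

/-- Outside `O₂` a 2-element squaring into it yields an involution inverting an element of order three
or five. -/
theorem Ord5.exists_inverted (h : Ord5 G) {b : G} (hb : b ∉ pCore 2 G) (hb2 : b * b ∈ pCore 2 G) :
    ∃ (m : ℕ) (y t : G), (m = 3 ∨ m = 5) ∧ y ^ m = 1 ∧ y ≠ 1 ∧ y ∉ pCore 2 G ∧
      t * y * t⁻¹ = y⁻¹ ∧ t * b⁻¹ ∈ pCore 2 G := by
  haveI : Fact (Nat.Prime 2) := ⟨Nat.prime_two⟩
  set O := pCore 2 G with hOdef
  have hOp : IsPGroup 2 O := CfsgLib.Constrained.isPGroup_pCore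
  have hb' : orderOf (QuotientGroup.mk' O b) = 2 := by
    refine orderOf_eq_prime ?_ (fun e => hb ((QuotientGroup.eq_one_iff b).1 e))
    rw [pow_two, ← map_mul]; exact (QuotientGroup.eq_one_iff _).2 hb2
  obtain ⟨k, hk1, hkodd, hkinv⟩ := CfsgLib.BaerSuzuki.involution_inverts_odd hb'
    (fun e => hb ((QuotientGroup.eq_one_iff b).1
      (Subgroup.mem_bot.1 ((CfsgLib.Constrained.pCore_quotient_pCore (p := 2) (G := G)).le e))))
  obtain ⟨y, rfl⟩ := QuotientGroup.mk'_surjective O k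
  obtain ⟨m, hm, hy⟩ := h.exists_exp y
  have hm' : m = 3 ∨ m = 5 := by
    rcases hm with rfl | rfl | rfl
    · exact Or.inl rfl
    · exfalso
      refine hk1 (orderOf_eq_one_iff.1 ?_)
      have h4 : orderOf (QuotientGroup.mk' O y) ∣ 4 :=
        orderOf_dvd_of_pow_eq_one (by rw [← map_pow, hy, map_one])
      exact Nat.eq_one_of_dvd_coprimes
        (show Nat.Coprime (orderOf (QuotientGroup.mk' O y)) (2 ^ 2) from hkodd.coprime_two_right.pow_right 2)
        dvd_rfl h4
    · exact Or.inr rfl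
  have hyO : y ∉ O := fun e => hk1 ((QuotientGroup.eq_one_iff y).2 e)
  have hy1 : y ≠ 1 := fun e => hyO (e ▸ O.one_mem)
  have hbg : b * y * b⁻¹ * y ∈ O := by
    refine (QuotientGroup.eq_one_iff _).1 ?_
    show QuotientGroup.mk' O (b * y * b⁻¹ * y) = 1
    rw [map_mul, map_mul, map_mul, map_inv, hkinv, inv_mul_cancel]
  obtain ⟨r, hr, hre⟩ := exists_inverting (D := O) (x := y) (g := b)
    (fun d hd => by simpa using (inferInstance : O.Normal).conj_mem d hd y⁻¹)
    (h.fpf hOp hm' hy hy1) hbg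
  exact ⟨m, y, r * b, hm', hy, hy1, hyO, hre, by simpa using hr⟩

/-- An inversion in a quotient by a 2-group lifts. -/
theorem Ord5.exists_inverted_lift (h : Ord5 G) {O : Subgroup G} [O.Normal] (hO : IsPGroup 2 O) {m : ℕ}
    (hm : m = 3 ∨ m = 5) {k s : G ⧸ O} (hk : k ^ m = 1) (hk1 : k ≠ 1) (hs : s * k * s⁻¹ = k⁻¹) :
    ∃ y t : G, y ^ m = 1 ∧ y ≠ 1 ∧ (y : G ⧸ O) = k ∧ (t : G ⧸ O) = s ∧ t * y * t⁻¹ = y⁻¹ := by
  obtain ⟨y, rfl⟩ := QuotientGroup.mk_surjective k
  obtain ⟨g, rfl⟩ := QuotientGroup.mk_surjective s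
  have hy := h.pow_of_image (QuotientGroup.mk' O) (by omega) hk hk1
  have hy1 : y ≠ 1 := fun e => hk1 (by rw [e]; rfl)
  obtain ⟨r, hr, hre⟩ := exists_inverting (D := O) (x := y) (g := g)
    (fun d hd => by simpa using (inferInstance : O.Normal).conj_mem d hd y⁻¹)
    (h.fpf hO hm hy hy1) ((QuotientGroup.eq_one_iff _).1 (by
      rw [QuotientGroup.mk_mul, QuotientGroup.mk_mul, QuotientGroup.mk_mul, QuotientGroup.mk_inv, hs,
        inv_mul_cancel]))
  exact ⟨y, r * g, hy, hy1, rfl, by rw [QuotientGroup.mk_mul, (QuotientGroup.eq_one_iff r).2 hr, one_mul],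
    hre⟩

/-- A non-identity commutative 2-group of exponent two. -/
def Elem (A : Subgroup G) : Prop := (∀ a ∈ A, ∀ b ∈ A, Commute a b) ∧ ∀ a ∈ A, a * a = 1

theorem Elem.isPGroup {A : Subgroup G} (hA : Elem A) : IsPGroup 2 A := fun a =>
  ⟨1, Subtype.ext (by simpa [pow_two] using hA.2 a a.2)⟩

theorem Elem.mono {A B : Subgroup G} (hA : Elem A) (hBA : B ≤ A) : Elem B :=
  ⟨fun a ha b hb => hA.1 a (hBA ha) b (hBA hb), fun a ha => hA.2 a (hBA ha)⟩

end CfsgLib.SpecFive
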